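import Mathlib

set_option autoImplicit false

/-! Chains of invariant normal subgroups with cyclic steps in a finite `p`-group acted on by an
abelian group of exponent dividing `p - 1`. -/

namespace Cfsg.Agent.Lib.Helper85

universe u

/-- An endomorphism `σ` with `σ^(p-1) = 1` of a nontrivial finite elementary abelian `p`-group
has an eigenvector. -/
theorem exists_eigen {V : Type*} [CommGroup V] [Finite V] [Nontrivial V] (p : ℕ) [Fact p.Prime]
    (hexp : ∀ v : V, v ^ p = 1) (σ : V →* V) (hσ : ∀ v : V, (⇑σ)^[p - 1] v = v) :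
    ∃ v : V, v ≠ 1 ∧ ∃ k : ℕ, σ v = v ^ k := by
  classical
  have hp : p.Prime := Fact.out
  have hz : ∀ x : Additive V, p • x = 0 := fun x => by
    show Additive.ofMul ((Additive.toMul x) ^ p) = 0
    rw [hexp]; rfl
  have inst : Module (ZMod p) (Additive V) := AddCommGroup.zmodModule hz
  let f : Module.End (ZMod p) (Additive V) := (MonoidHom.toAdditive σ).toZModLinearMap p
  have hfit : ∀ (n : ℕ) (x : Additive V),
      (⇑f)^[n] x = Additive.ofMul ((⇑σ)^[n] (Additive.toMul x)) := by
    intro n
    induction n with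
    | zero => intro x; rfl
    | succ n ih =>
      intro x
      rw [Function.iterate_succ_apply', ih, Function.iterate_succ_apply']
      rfl
  have hσp : ∀ v : V, (⇑σ)^[p] v = σ v := by
    intro v
    obtain ⟨q, hq⟩ : ∃ q, p = q + 1 := ⟨p - 1, by have := hp.pos; omega⟩
    have h1 := hσ (σ v)
    rw [hq, Nat.add_sub_cancel] at h1
    rw [hq, Function.iterate_succ_apply, h1]
  have hfp : f ^ p = f := by
    apply LinearMap.ext
    intro x
    rw [Module.End.pow_apply, hfit, hσp]
    rfl
  have haeval : Polynomial.aeval f (Polynomial.X ^ p - Polynomial.X : Polynomial (ZMod p)) = 0 := by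
    simp [hfp]
  have hdvd := minpoly.dvd (ZMod p) f haeval
  have hsplit : (Polynomial.X ^ p - Polynomial.X : Polynomial (ZMod p)).Splits := by
    rw [Polynomial.splits_iff_card_roots]
    have h1 := FiniteField.roots_X_pow_card_sub_X (ZMod p)
    rw [ZMod.card] at h1
    rw [h1, FiniteField.X_pow_card_sub_X_natDegree_eq _ hp.one_lt]
    simp [ZMod.card]
  have hne : (Polynomial.X ^ p - Polynomial.X : Polynomial (ZMod p)) ≠ 0 :=
    FiniteField.X_pow_card_sub_X_ne_zero _ hp.one_lt
  have hms := Polynomial.Splits.of_dvd hsplit hne hdvd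
  have hint : IsIntegral (ZMod p) f := Algebra.IsIntegral.isIntegral f
  have hdeg : (minpoly (ZMod p) f).degree ≠ 0 := (minpoly.degree_pos hint).ne'
  obtain ⟨a, ha⟩ := hms.exists_eval_eq_zero hdeg
  have hev := Module.End.hasEigenvalue_of_isRoot (f := f) ha
  obtain ⟨x, hx⟩ := hev.exists_hasEigenvector
  refine ⟨Additive.toMul x, ?_, a.val, ?_⟩
  · intro h
    apply hx.2
    have : x = Additive.ofMul (Additive.toMul x) := rfl
    rw [this, h]
    rfl
  · have h1 : f x = a • x := hx.apply_eq_smul
    have h2 : a • x = a.val • x := by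
      rw [← Nat.cast_smul_eq_nsmul (ZMod p) a.val x, ZMod.natCast_zmod_val]
    rw [h2] at h1
    have h3 : f x = Additive.ofMul (σ (Additive.toMul x)) := rfl
    have h4 : a.val • x = Additive.ofMul ((Additive.toMul x) ^ a.val) := rfl
    rw [h3, h4] at h1
    exact Additive.ofMul.injective h1

/-- A family of pairwise commuting endomorphisms of order dividing `p - 1` of a nontrivial finite
abelian `p`-group has a common eigenvector. -/
theorem exists_common_eigen {A : Type*} [CommGroup A] [Finite A] [Nontrivial A] (p : ℕ)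
    [Fact p.Prime] (hA : IsPGroup p A) {ι : Type*} (τ : ι → (A →* A))
    (hcomm : ∀ i j x, τ i (τ j x) = τ j (τ i x))
    (hord : ∀ i x, (⇑(τ i))^[p - 1] x = x) :
    ∃ v : A, v ≠ 1 ∧ ∀ i, ∃ k : ℕ, τ i v = v ^ k := by
  classical
  have hp : p.Prime := Fact.out
  let Good : Subgroup A → Prop := fun W =>
    W ≠ ⊥ ∧ (∀ x ∈ W, x ^ p = 1) ∧ ∀ (i : ι) (x : A), x ∈ W → τ i x ∈ W
  have hG0 : ∃ W, Good W := by
    refine ⟨(powMonoidHom p : A →* A).ker, ?_, ?_, ?_⟩
    · have hpc : p ∣ Nat.card A := by
        obtain ⟨k, hk⟩ := IsPGroup.iff_card.1 hA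
        have hk0 : k ≠ 0 := by
          rintro rfl
          rw [pow_zero] at hk
          have := Finite.one_lt_card (α := A)
          omega
        rw [hk]
        exact dvd_pow_self p hk0
      obtain ⟨g, hg⟩ := exists_prime_orderOf_dvd_card' p hpc
      intro hbot
      have hmem : g ∈ (powMonoidHom p : A →* A).ker := by
        rw [MonoidHom.mem_ker, powMonoidHom_apply, ← hg, pow_orderOf_eq_one]
      rw [hbot, Subgroup.mem_bot] at hmem
      rw [hmem, orderOf_one] at hg
      exact hp.one_lt.ne hg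
    · intro x hx
      rwa [MonoidHom.mem_ker, powMonoidHom_apply] at hx
    · intro i x hx
      rw [MonoidHom.mem_ker, powMonoidHom_apply] at hx ⊢
      rw [← map_pow, hx, map_one]
  obtain ⟨W₀, hW₀⟩ := hG0
  obtain ⟨W, hW, hmin⟩ := wellFounded_lt.has_min {W : Subgroup A | Good W} ⟨W₀, hW₀⟩
  have hminle : ∀ W' : Subgroup A, Good W' → W' ≤ W → W ≤ W' := fun W' hW' hle => by
    by_contra hnle
    exact hmin W' hW' (lt_of_le_not_ge hle hnle)
  obtain ⟨hWne, hWexp, hWinv⟩ := hW
  have hpowmap : ∀ i : ι, ∃ k : ℕ, ∀ w ∈ W, τ i w = w ^ k := by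
    intro i
    haveI : Nontrivial W := (Subgroup.nontrivial_iff_ne_bot W).2 hWne
    let σ : W →* W := ((τ i).comp W.subtype).codRestrict W (fun w => hWinv i w w.2)
    have hσit : ∀ (n : ℕ) (w : W), (((⇑σ)^[n] w : W) : A) = (⇑(τ i))^[n] (w : A) := by
      intro n
      induction n with
      | zero => intro w; rfl
      | succ n ih =>
        intro w
        rw [Function.iterate_succ_apply', Function.iterate_succ_apply', ← ih]
        rfl
    have hσ : ∀ w : W, (⇑σ)^[p - 1] w = w := by
      intro w
      apply Subtype.ext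
      rw [hσit, hord]
    obtain ⟨w, hw1, k, hwk⟩ := exists_eigen p
      (fun w : W => Subtype.ext (by rw [Subgroup.coe_pow]; exact hWexp w w.2)) σ hσ
    refine ⟨k, ?_⟩
    let E : Subgroup A :=
      { carrier := {x | x ∈ W ∧ τ i x = x ^ k}
        mul_mem' := by
          rintro a b ⟨ha, ha'⟩ ⟨hb, hb'⟩
          exact ⟨W.mul_mem ha hb, by rw [map_mul, ha', hb', mul_pow]⟩
        one_mem' := ⟨W.one_mem, by rw [map_one, one_pow]⟩
        inv_mem' := by
          rintro a ⟨ha, ha'⟩
          exact ⟨W.inv_mem ha, by rw [map_inv, ha', inv_pow]⟩ }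
    have hE : Good E := by
      refine ⟨?_, fun x hx => hWexp x hx.1, fun j x hx => ⟨hWinv j x hx.1, ?_⟩⟩
      · intro hbot
        have hmem : (w : A) ∈ E := ⟨w.2, by
          have := congrArg Subtype.val hwk
          rw [Subgroup.coe_pow] at this
          exact this⟩
        rw [hbot, Subgroup.mem_bot] at hmem
        exact hw1 (Subtype.ext hmem)
      · rw [hcomm, hx.2, map_pow]
    have hle := hminle E hE (fun x hx => hx.1)
    exact fun w hw => (hle hw).2
  obtain ⟨v, hvW, hv1⟩ : ∃ v ∈ W, v ≠ 1 := by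
    by_contra hcon
    push_neg at hcon
    exact hWne ((Subgroup.eq_bot_iff_forall W).2 hcon)
  refine ⟨v, hv1, fun i => ?_⟩
  obtain ⟨k, hk⟩ := hpowmap i
  exact ⟨k, hk v hvW⟩

/-- An abelian group of exponent dividing `p - 1` acting on a nontrivial finite `p`-group
normalizes a central cyclic subgroup. -/
theorem exists_invariant_cyclic {p : ℕ} [Fact p.Prime] {H : Type*} [Group H]
    (hc : ∀ a b : H, a * b = b * a) (hexp : ∀ h : H, h ^ (p - 1) = 1)
    {P : Type*} [Group P] [Finite P] [Nontrivial P] (hP : IsPGroup p P) (ρ : H →* MulAut P) :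
    ∃ v : P, v ≠ 1 ∧ v ∈ Subgroup.center P ∧ ∀ h : H, ∃ k : ℕ, ρ h v = v ^ k := by
  classical
  haveI : Nontrivial (Subgroup.center P) := hP.center_nontrivial
  letI instC : CommGroup (Subgroup.center P) :=
    { (inferInstance : Group (Subgroup.center P)) with
      mul_comm := fun a b => Subtype.ext (Subgroup.mem_center_iff.1 b.2 a) }
  have hcen : ∀ (h : H) (z : P), z ∈ Subgroup.center P → ρ h z ∈ Subgroup.center P := by
    intro h z hz
    rw [Subgroup.mem_center_iff] at hz ⊢
    intro g
    have h1 := hz ((ρ h)⁻¹ g)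
    have h2 := congrArg (ρ h) h1
    simpa using h2
  let τ : H → (Subgroup.center P →* Subgroup.center P) := fun h =>
    ((ρ h).toMonoidHom.comp (Subgroup.center P).subtype).codRestrict (Subgroup.center P)
      (fun z => hcen h z z.2)
  have hτit : ∀ (h : H) (n : ℕ) (z : Subgroup.center P),
      (((⇑(τ h))^[n] z : Subgroup.center P) : P) = ((ρ h) ^ n) (z : P) := by
    intro h n
    induction n with
    | zero => intro z; rfl
    | succ n ih =>
      intro z
      rw [Function.iterate_succ_apply', pow_succ', MulAut.mul_apply, ← ih]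
      rfl
  obtain ⟨v, hv1, hv⟩ := exists_common_eigen (A := Subgroup.center P) (ι := H) p
    (hP.to_subgroup (Subgroup.center P)) τ
    (fun i j x => by
      apply Subtype.ext
      show ρ i (ρ j (x : P)) = ρ j (ρ i (x : P))
      rw [← MulAut.mul_apply, ← MulAut.mul_apply, ← map_mul, ← map_mul, hc i j])
    (fun i x => by
      apply Subtype.ext
      rw [hτit, ← map_pow, hexp, map_one]
      rfl)
  refine ⟨(v : P), fun h => hv1 (Subtype.ext h), v.2, fun h => ?_⟩
  obtain ⟨k, hk⟩ := hv h
  refine ⟨k, ?_⟩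
  have := congrArg Subtype.val hk
  rw [Subgroup.coe_pow] at this
  exact this

/-- chains from `R` up to `⊤` with cyclic steps whose proper terms satisfy `Inv`. -/
inductive CycCh {P : Type*} [Group P] (Inv : Subgroup P → Prop) : Subgroup P → Prop
  | top : CycCh Inv ⊤
  | step (R R₁ : Subgroup P) : Inv R → R ≤ R₁ → (∃ x : P, R₁ = R ⊔ Subgroup.zpowers x) →
      CycCh Inv R₁ → CycCh Inv R

theorem comap_sup_zpowers {P : Type*} [Group P] (N : Subgroup P) [N.Normal]
    (R : Subgroup (P ⧸ N)) [R.Normal] (x : P) :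
    (R ⊔ Subgroup.zpowers (QuotientGroup.mk' N x)).comap (QuotientGroup.mk' N)
      = R.comap (QuotientGroup.mk' N) ⊔ Subgroup.zpowers x := by
  apply le_antisymm
  · intro y hy
    rw [Subgroup.mem_comap] at hy
    have h1 : (QuotientGroup.mk' N y) ∈
        ((R ⊔ Subgroup.zpowers (QuotientGroup.mk' N x) : Subgroup (P ⧸ N)) : Set (P ⧸ N)) := hy
    rw [Subgroup.normal_mul] at h1
    obtain ⟨a, ha, b, hb, hab⟩ := h1
    obtain ⟨k, rfl⟩ := Subgroup.mem_zpowers_iff.1 hb
    have h2 : y * (x ^ k)⁻¹ ∈ R.comap (QuotientGroup.mk' N) := by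
      rw [Subgroup.mem_comap, map_mul, map_inv, map_zpow, ← hab, mul_inv_cancel_right]
      exact ha
    have e : y = (y * (x ^ k)⁻¹) * x ^ k := by group
    rw [e]
    exact Subgroup.mul_mem _ (Subgroup.mem_sup_left h2)
      (Subgroup.mem_sup_right (Subgroup.zpow_mem_zpowers x k))
  · apply sup_le
    · exact Subgroup.comap_mono le_sup_left
    · rw [Subgroup.zpowers_le, Subgroup.mem_comap]
      exact Subgroup.mem_sup_right (Subgroup.mem_zpowers _)

theorem cycCh_comap {P : Type*} [Group P] (N : Subgroup P) [N.Normal]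
    {Inv : Subgroup P → Prop} {Inv' : Subgroup (P ⧸ N) → Prop}
    (hInv : ∀ R : Subgroup (P ⧸ N), Inv' R → Inv (R.comap (QuotientGroup.mk' N)))
    (hn : ∀ R : Subgroup (P ⧸ N), Inv' R → R.Normal)
    {R : Subgroup (P ⧸ N)} (h : CycCh Inv' R) : CycCh Inv (R.comap (QuotientGroup.mk' N)) := by
  induction h with
  | top => rw [Subgroup.comap_top]; exact CycCh.top
  | step R R₁ hR hle hx _ ih =>
    obtain ⟨x, hx⟩ := hx
    obtain ⟨y, rfl⟩ := QuotientGroup.mk'_surjective N x
    haveI := hn R hR
    refine CycCh.step _ _ (hInv R hR) (Subgroup.comap_mono hle) ⟨y, ?_⟩ ih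
    rw [hx, comap_sup_zpowers]

/-- A finite `p`-group acted on by an abelian group of exponent dividing `p - 1` has an
invariant normal series with cyclic steps. -/
theorem cyc_chain {p : ℕ} [Fact p.Prime] {H : Type*} [Group H]
    (hc : ∀ a b : H, a * b = b * a) (hexp : ∀ h : H, h ^ (p - 1) = 1) :
    ∀ (n : ℕ) (P : Type u) [Group P] [Finite P], IsPGroup p P → Nat.card P ≤ n →
      ∀ ρ : H →* MulAut P,
        CycCh (fun R : Subgroup P => R.Normal ∧ ∀ (h : H) (x : P), x ∈ R → ρ h x ∈ R) ⊥ := by
  intro n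
  induction n with
  | zero =>
    intro P _ _ hP hcard ρ
    have := Nat.card_pos (α := P)
    omega
  | succ n ih =>
    intro P _ _ hP hcard ρ
    by_cases htriv : (⊥ : Subgroup P) = ⊤
    · rw [htriv]; exact CycCh.top
    · haveI : Nontrivial P := by
        by_contra hnt
        rw [not_nontrivial_iff_subsingleton] at hnt
        exact htriv (Subsingleton.elim _ _)
      obtain ⟨v, hv1, hvc, hvk⟩ := exists_invariant_cyclic hc hexp hP ρ
      let N : Subgroup P := Subgroup.zpowers v
      have hNc : N ≤ Subgroup.center P := (Subgroup.zpowers_le).2 hvc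
      haveI hNn : N.Normal := by
        constructor
        intro x hx g
        have h1 := Subgroup.mem_center_iff.1 (hNc hx) g
        have e : g * x * g⁻¹ = x := by rw [h1, mul_inv_cancel_right]
        rw [e]; exact hx
      have hNinv : ∀ (h : H) (x : P), x ∈ N → ρ h x ∈ N := by
        intro h x hx
        obtain ⟨k, hk⟩ := hvk h
        obtain ⟨j, rfl⟩ := Subgroup.mem_zpowers_iff.1 hx
        rw [map_zpow, hk]
        exact Subgroup.zpow_mem _ (Subgroup.pow_mem _ (Subgroup.mem_zpowers v) k) j
      have hNmap : ∀ h : H, N.map ((ρ h : P ≃* P) : P →* P) = N := by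
        intro h
        apply le_antisymm
        · rintro _ ⟨x, hx, rfl⟩
          exact hNinv h x hx
        · intro x hx
          refine ⟨ρ h⁻¹ x, hNinv h⁻¹ x hx, ?_⟩
          show ρ h (ρ h⁻¹ x) = x
          rw [← MulAut.mul_apply, ← map_mul, mul_inv_cancel, map_one]
          rfl
      let ρ' : H →* MulAut (P ⧸ N) := MonoidHom.mk' (fun h => QuotientGroup.congr N N (ρ h) (hNmap h))
        (by
          intro a b
          ext x
          obtain ⟨y, rfl⟩ := QuotientGroup.mk_surjective x
          show QuotientGroup.mk (ρ (a * b) y) = QuotientGroup.mk (ρ a (ρ b y))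
          rw [map_mul]
          rfl)
      have hcard' : Nat.card (P ⧸ N) ≤ n := by
        have h1 : Nat.card (P ⧸ N) * Nat.card N = Nat.card P := by
          rw [mul_comm]
          exact (Subgroup.card_eq_card_quotient_mul_card_subgroup N).symm ▸ (mul_comm _ _)
        have h2 : 2 ≤ Nat.card N := by
          have hne : N ≠ ⊥ := by
            intro hbot
            have : v ∈ N := Subgroup.mem_zpowers v
            rw [hbot, Subgroup.mem_bot] at this
            exact hv1 this
          haveI : Nontrivial N := (Subgroup.nontrivial_iff_ne_bot N).2 hne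
          exact Finite.one_lt_card
        have h3 : 0 < Nat.card (P ⧸ N) := Nat.card_pos
        nlinarith
      have hIH := ih (P ⧸ N) (hP.to_quotient N) hcard' ρ'
      have hpull := cycCh_comap N
        (Inv := fun R : Subgroup P => R.Normal ∧ ∀ (h : H) (x : P), x ∈ R → ρ h x ∈ R)
        (fun R hR => ⟨by haveI := hR.1; infer_instance, fun h x hx => by
          rw [Subgroup.mem_comap] at hx ⊢
          exact hR.2 h _ hx⟩) (fun R hR => hR.1) hIH
      have hker : (⊥ : Subgroup (P ⧸ N)).comap (QuotientGroup.mk' N) = N := by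
        rw [MonoidHom.comap_bot, QuotientGroup.ker_mk']
      rw [hker] at hpull
      refine CycCh.step ⊥ N ⟨inferInstance, fun h x hx => ?_⟩ bot_le ⟨v, by rw [bot_sup_eq]⟩ hpull
      rw [Subgroup.mem_bot] at hx ⊢
      rw [hx, map_one]

end Cfsg.Agent.Lib.Helper85
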