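import Mathlib
import Cfsg.Agent.Lib.Helper85.CycChain
import Cfsg.Agent.Lib.Helper87.FusionNormal

set_option autoImplicit false

/-! Automorphisms of a finite `p`-group preserving a normal series with cyclic factors:
power-map action on the factors, triviality of coprime automorphisms acting trivially on the
factors, commutativity and exponent of `p'`-groups of such automorphisms, and the refinement of
a cyclic factor into layers that are centralized modulo the previous layer. -/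

namespace Cfsg.Agent.Lib.Helper85

section
variable {P : Type*} [Group P]

/-- membership in `N ⊔ zpowers x` for normal `N` -/
theorem mem_sup_zpowers_iff (N : Subgroup P) [N.Normal] (x y : P) :
    y ∈ N ⊔ Subgroup.zpowers x ↔ ∃ n ∈ N, ∃ k : ℤ, y = n * x ^ k := by
  constructor
  · intro hy
    have h1 : y ∈ ((N ⊔ Subgroup.zpowers x : Subgroup P) : Set P) := hy
    rw [Subgroup.normal_mul] at h1
    obtain ⟨a, ha, b, hb, hab⟩ := h1
    obtain ⟨k, rfl⟩ := Subgroup.mem_zpowers_iff.1 hb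
    exact ⟨a, ha, k, hab.symm⟩
  · rintro ⟨n, hn, k, rfl⟩
    exact Subgroup.mul_mem _ (Subgroup.mem_sup_left hn)
      (Subgroup.mem_sup_right (Subgroup.zpow_mem_zpowers x k))

/-- `γ` acts on `(N ⊔ zpowers x) / N` as the `e`-th power map. -/
def PwAct (N : Subgroup P) (x : P) (γ : MulAut P) (e : ℕ) : Prop :=
  ∀ y ∈ N ⊔ Subgroup.zpowers x, (y ^ e)⁻¹ * γ y ∈ N

theorem pwAct_iff (N : Subgroup P) [N.Normal] (x : P) (γ : MulAut P) (e : ℕ) :
    PwAct N x γ e ↔ ∀ y ∈ N ⊔ Subgroup.zpowers x,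
      QuotientGroup.mk' N (γ y) = (QuotientGroup.mk' N y) ^ e := by
  constructor
  · intro h y hy
    rw [← map_pow]
    exact (QuotientGroup.eq.2 (h y hy)).symm
  · intro h y hy
    have h1 := h y hy
    rw [← map_pow] at h1
    exact QuotientGroup.eq.1 h1.symm

theorem pwAct_exists [Finite P] (N : Subgroup P) [N.Normal] (x : P) (γ : MulAut P)
    (hN : ∀ y ∈ N, γ y ∈ N) (hx : γ x ∈ N ⊔ Subgroup.zpowers x) : ∃ e : ℕ, PwAct N x γ e := by
  obtain ⟨n, hn, k, hk⟩ := (mem_sup_zpowers_iff N x (γ x)).1 hx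
  have e0 : QuotientGroup.mk' N n = 1 := (QuotientGroup.eq_one_iff n).2 hn
  have h1 : QuotientGroup.mk' N (γ x) ∈ Subgroup.zpowers (QuotientGroup.mk' N x) := by
    rw [hk, map_mul, map_zpow, e0, one_mul]
    exact Subgroup.zpow_mem_zpowers _ k
  rw [← mem_powers_iff_mem_zpowers] at h1
  obtain ⟨e, he⟩ := h1
  have he' : (QuotientGroup.mk' N x) ^ e = QuotientGroup.mk' N (γ x) := he
  refine ⟨e, (pwAct_iff N x γ e).2 (fun y hy => ?_)⟩
  obtain ⟨n', hn', j, rfl⟩ := (mem_sup_zpowers_iff N x y).1 hy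
  have e1 : QuotientGroup.mk' N n' = 1 := (QuotientGroup.eq_one_iff n').2 hn'
  have e2 : QuotientGroup.mk' N (γ n') = 1 := (QuotientGroup.eq_one_iff _).2 (hN n' hn')
  rw [map_mul, map_zpow, map_mul, map_zpow, map_mul, map_zpow, e1, e2, one_mul, one_mul, ← he',
    ← zpow_natCast, ← zpow_natCast, ← zpow_mul, ← zpow_mul, mul_comm]

theorem PwAct.mul {N : Subgroup P} [N.Normal] {x : P} {γ δ : MulAut P} {e f : ℕ}
    (hγ : PwAct N x γ e) (hδ : PwAct N x δ f)
    (hδM : ∀ y ∈ N ⊔ Subgroup.zpowers x, δ y ∈ N ⊔ Subgroup.zpowers x) :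
    PwAct N x (γ * δ) (f * e) := by
  rw [pwAct_iff] at hγ hδ ⊢
  intro y hy
  rw [MulAut.mul_apply, hγ (δ y) (hδM y hy), hδ y hy, ← pow_mul]

theorem pwAct_one (N : Subgroup P) [N.Normal] (x : P) : PwAct N x 1 1 := by
  rw [pwAct_iff]
  intro y hy
  rw [pow_one]; rfl

theorem PwAct.pow {N : Subgroup P} [N.Normal] {x : P} {γ : MulAut P} {e : ℕ}
    (hγ : PwAct N x γ e)
    (hγM : ∀ y ∈ N ⊔ Subgroup.zpowers x, γ y ∈ N ⊔ Subgroup.zpowers x) :
    ∀ j : ℕ, PwAct N x (γ ^ j) (e ^ j)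
  | 0 => by rw [pow_zero, pow_zero]; exact pwAct_one N x
  | j + 1 => by
    have h := (PwAct.pow hγ hγM j).mul hγ hγM
    rw [pow_succ, pow_succ']
    exact h

theorem PwAct.triv {N : Subgroup P} [N.Normal] {x : P} {γ : MulAut P} {e : ℕ}
    (hγ : PwAct N x γ e) {y : P} (hy : y ∈ N ⊔ Subgroup.zpowers x)
    (he : (QuotientGroup.mk' N y) ^ e = QuotientGroup.mk' N y) : y⁻¹ * γ y ∈ N := by
  have h1 := (pwAct_iff N x γ e).1 hγ y hy
  rw [he] at h1
  exact QuotientGroup.eq.1 h1.symm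

theorem pow_card_subgroup_eq_one {G : Type*} [Group G] (Γ : Subgroup G) [Finite Γ] {u : G}
    (hu : u ∈ Γ) : u ^ Nat.card Γ = 1 := by
  have h := pow_card_eq_one' (G := Γ) (x := ⟨u, hu⟩)
  have h2 := congrArg Subtype.val h
  rw [Subgroup.coe_pow] at h2
  exact h2

/-- An automorphism of order prime to `|P|` acting trivially on all factors of a series is
trivial. -/
theorem aut_eq_one_of_triv [Finite P] {m : ℕ} (d : Fin (m + 1) → Subgroup P) (hd0 : d 0 = ⊥)
    (hdl : d (Fin.last m) = ⊤) (γ : MulAut P)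
    (htriv : ∀ i : Fin m, ∀ y ∈ d i.succ, y⁻¹ * γ y ∈ d i.castSucc)
    (n : ℕ) (hn : γ ^ n = 1) (hcop : n.Coprime (Nat.card P)) : γ = 1 := by
  have key : ∀ i : Fin (m + 1), ∀ y ∈ d i, γ y = y := by
    intro i
    induction i using Fin.induction with
    | zero =>
      intro y hy
      rw [hd0, Subgroup.mem_bot] at hy
      rw [hy, map_one]
    | succ i ih =>
      intro y hy
      have hk := htriv i y hy
      have hfix := ih _ hk
      have hmul : γ y = y * (y⁻¹ * γ y) := by rw [mul_inv_cancel_left]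
      have h1 := Cfsg.Agent.Lib.Helper87.aut_pow_apply_of_fix γ y (y⁻¹ * γ y) hmul hfix n
      rw [hn] at h1
      have h2 : (y⁻¹ * γ y) ^ n = 1 := by
        have h1' : y = y * (y⁻¹ * γ y) ^ n := h1
        exact mul_eq_left.1 h1'.symm
      have h3 : (y⁻¹ * γ y) ^ Nat.card P = 1 := pow_card_eq_one'
      have h4 : (y⁻¹ * γ y) ^ (Nat.gcd n (Nat.card P)) = 1 := pow_gcd_eq_one.2 ⟨h2, h3⟩
      rw [Nat.Coprime.gcd_eq_one hcop, pow_one] at h4
      have h5 : γ y = y * 1 := by rw [← h4, mul_inv_cancel_left]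
      rw [h5, mul_one]
  ext y
  exact key (Fin.last m) y (by rw [hdl]; exact Subgroup.mem_top y)

/-- A `p'`-group of automorphisms of a finite `p`-group preserving a normal series with cyclic
factors is abelian of exponent dividing `p - 1`. -/
theorem coprime_aut_comm [Finite P] {p : ℕ} [Fact p.Prime] (hP : IsPGroup p P)
    (Γ : Subgroup (MulAut P)) (hΓ : (Nat.card Γ).Coprime p) {m : ℕ}
    (d : Fin (m + 1) → Subgroup P) (hd0 : d 0 = ⊥) (hdl : d (Fin.last m) = ⊤)
    (hdn : ∀ i, (d i).Normal) (hinv : ∀ i, ∀ γ ∈ Γ, ∀ y ∈ d i, γ y ∈ d i)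
    (hstep : ∀ i : Fin m, ∃ x : P, d i.succ = d i.castSucc ⊔ Subgroup.zpowers x) :
    (∀ a ∈ Γ, ∀ b ∈ Γ, a * b = b * a) ∧ ∀ h ∈ Γ, h ^ (p - 1) = 1 := by
  classical
  have hp : p.Prime := Fact.out
  obtain ⟨K, hK⟩ := IsPGroup.iff_card.1 hP
  haveI : Finite Γ := inferInstance
  have hcopΓ : (Nat.card Γ).Coprime (Nat.card P) := by
    rw [hK]; exact Nat.Coprime.pow_right K hΓ
  have hex : ∀ i : Fin m, ∀ x : P, d i.succ = d i.castSucc ⊔ Subgroup.zpowers x →
      ∀ γ ∈ Γ, ∃ e : ℕ, PwAct (d i.castSucc) x γ e := by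
    intro i x hx γ hγ
    haveI := hdn i.castSucc
    refine pwAct_exists (d i.castSucc) x γ (hinv i.castSucc γ hγ) ?_
    rw [← hx]
    exact hinv i.succ γ hγ x (by rw [hx]; exact Subgroup.mem_sup_right (Subgroup.mem_zpowers x))
  have hM : ∀ i : Fin m, ∀ x : P, d i.succ = d i.castSucc ⊔ Subgroup.zpowers x →
      ∀ γ ∈ Γ, ∀ y ∈ d i.castSucc ⊔ Subgroup.zpowers x,
        γ y ∈ d i.castSucc ⊔ Subgroup.zpowers x := by
    intro i x hx γ hγ y hy
    rw [← hx] at hy ⊢
    exact hinv i.succ γ hγ y hy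
  constructor
  · intro a ha b hb
    have hu : a * b * a⁻¹ * b⁻¹ = 1 := by
      refine aut_eq_one_of_triv d hd0 hdl _ ?_ (Nat.card Γ) ?_ hcopΓ
      · intro i y hy
        obtain ⟨x, hx⟩ := hstep i
        haveI := hdn i.castSucc
        obtain ⟨α, hα⟩ := hex i x hx a ha
        obtain ⟨β, hβ⟩ := hex i x hx b hb
        obtain ⟨α', hα'⟩ := hex i x hx a⁻¹ (Γ.inv_mem ha)
        obtain ⟨β', hβ'⟩ := hex i x hx b⁻¹ (Γ.inv_mem hb)
        have hy' : y ∈ d i.castSucc ⊔ Subgroup.zpowers x := hx ▸ hy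
        have h1 := ((hα.mul hβ (hM i x hx b hb)).mul hα' (hM i x hx a⁻¹ (Γ.inv_mem ha))).mul hβ'
          (hM i x hx b⁻¹ (Γ.inv_mem hb))
        have h2 := hα.mul hα' (hM i x hx a⁻¹ (Γ.inv_mem ha))
        have h3 := hβ.mul hβ' (hM i x hx b⁻¹ (Γ.inv_mem hb))
        rw [mul_inv_cancel] at h2 h3
        have h2' : (QuotientGroup.mk' (d i.castSucc) y) ^ (α' * α)
            = QuotientGroup.mk' (d i.castSucc) y :=
          ((pwAct_iff _ x _ _).1 h2 y hy').symm
        have h3' : (QuotientGroup.mk' (d i.castSucc) y) ^ (β' * β)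
            = QuotientGroup.mk' (d i.castSucc) y :=
          ((pwAct_iff _ x _ _).1 h3 y hy').symm
        apply PwAct.triv h1 hy'
        have e1 : β' * (α' * (β * α)) = (α' * α) * (β' * β) := by ring
        rw [e1, pow_mul, h2', h3']
      · exact pow_card_subgroup_eq_one Γ
          (Γ.mul_mem (Γ.mul_mem (Γ.mul_mem ha hb) (Γ.inv_mem ha)) (Γ.inv_mem hb))
    calc a * b = (a * b * a⁻¹ * b⁻¹) * (b * a) := by group
      _ = b * a := by rw [hu, one_mul]
  · intro h hh
    have hw : h ^ (p ^ K * (p - 1)) = 1 := by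
      refine aut_eq_one_of_triv d hd0 hdl _ ?_ (Nat.card Γ) ?_ hcopΓ
      · intro i y hy
        obtain ⟨x, hx⟩ := hstep i
        haveI := hdn i.castSucc
        obtain ⟨e, he⟩ := hex i x hx h hh
        obtain ⟨e', he'⟩ := hex i x hx h⁻¹ (Γ.inv_mem hh)
        have hy' : y ∈ d i.castSucc ⊔ Subgroup.zpowers x := hx ▸ hy
        have h1 := he.pow (hM i x hx h hh) (p ^ K * (p - 1))
        have h2 := he.mul he' (hM i x hx h⁻¹ (Γ.inv_mem hh))
        rw [mul_inv_cancel] at h2
        have h2' : (QuotientGroup.mk' (d i.castSucc) y) ^ (e' * e)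
            = QuotientGroup.mk' (d i.castSucc) y :=
          ((pwAct_iff _ x _ _).1 h2 y hy').symm
        apply PwAct.triv h1 hy'
        generalize hq : QuotientGroup.mk' (d i.castSucc) y = q at h2' ⊢
        by_cases hq1 : q = 1
        · rw [hq1, one_pow]
        · have hqK : q ^ (p ^ K) = 1 := by
            rw [← hq, ← map_pow, ← hK, pow_card_eq_one', map_one]
          have hord : orderOf q ∣ p ^ K := orderOf_dvd_of_pow_eq_one hqK
          have hpo : p ∣ orderOf q := by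
            obtain ⟨j, hj, hj'⟩ := (Nat.dvd_prime_pow hp).1 hord
            rw [hj']
            have hj0 : j ≠ 0 := by
              rintro rfl
              rw [pow_zero, orderOf_eq_one_iff] at hj'
              exact hq1 hj'
            exact dvd_pow_self p hj0
          have hmod : e' * e ≡ 1 [MOD orderOf q] := by
            rw [← pow_eq_pow_iff_modEq, pow_one]; exact h2'
          have hmodp : e' * e ≡ 1 [MOD p] := hmod.of_dvd hpo
          have hcop : Nat.Coprime e p := by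
            rw [Nat.coprime_comm, Nat.Prime.coprime_iff_not_dvd hp]
            intro hdvd
            have h0 : (e' * e) % p = 0 := Nat.mod_eq_zero_of_dvd (dvd_mul_of_dvd_right hdvd e')
            have h1' : (e' * e) % p = 1 % p := hmodp
            rw [h0, Nat.mod_eq_of_lt hp.one_lt] at h1'
            exact zero_ne_one h1'
          have htot := Nat.ModEq.pow_totient (Nat.Coprime.pow_right (K + 1) hcop)
          rw [Nat.totient_prime_pow_succ hp K] at htot
          have hmod2 : e ^ (p ^ K * (p - 1)) ≡ 1 [MOD orderOf q] :=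
            htot.of_dvd (hord.trans (pow_dvd_pow p (Nat.le_succ K)))
          have h5 := pow_eq_pow_iff_modEq.2 hmod2
          rw [pow_one] at h5
          exact h5
      · exact pow_card_subgroup_eq_one Γ (Γ.pow_mem hh _)
    have h1 : orderOf h ∣ p ^ K * (p - 1) := orderOf_dvd_of_pow_eq_one hw
    have h2 : orderOf h ∣ Nat.card Γ := orderOf_dvd_of_pow_eq_one (pow_card_subgroup_eq_one Γ hh)
    have h3 : (orderOf h).Coprime (p ^ K) :=
      Nat.Coprime.pow_right K (Nat.Coprime.coprime_dvd_left h2 hΓ)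
    have h4 : orderOf h ∣ p - 1 := h3.dvd_of_dvd_mul_left h1
    exact orderOf_dvd_iff_pow_eq_one.1 h4

/-- The elements of the cyclic group `(N ⊔ ⟨x⟩)/N` of order dividing `p ^ k`, pulled back. -/
def cycLayer (N : Subgroup P) [N.Normal] (x : P) (p k : ℕ) : Subgroup P :=
  Subgroup.comap (QuotientGroup.mk' N)
    { carrier := {q | q ∈ Subgroup.zpowers (QuotientGroup.mk' N x) ∧ q ^ (p ^ k) = 1}
      mul_mem' := by
        rintro a b ⟨ha, ha'⟩ ⟨hb, hb'⟩
        refine ⟨Subgroup.mul_mem _ ha hb, ?_⟩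
        obtain ⟨i, rfl⟩ := Subgroup.mem_zpowers_iff.1 ha
        obtain ⟨j, rfl⟩ := Subgroup.mem_zpowers_iff.1 hb
        have hc : Commute (QuotientGroup.mk' N x ^ i) (QuotientGroup.mk' N x ^ j) :=
          zpow_mul_comm _ i j
        rw [hc.mul_pow, ha', hb', one_mul]
      one_mem' := ⟨Subgroup.one_mem _, one_pow _⟩
      inv_mem' := by
        rintro a ⟨ha, ha'⟩
        exact ⟨Subgroup.inv_mem _ ha, by rw [inv_pow, ha', inv_one]⟩ }

theorem mem_cycLayer (N : Subgroup P) [N.Normal] (x : P) (p k : ℕ) (z : P) :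
    z ∈ cycLayer N x p k ↔ z ∈ N ⊔ Subgroup.zpowers x ∧ z ^ (p ^ k) ∈ N := by
  have h1 : QuotientGroup.mk' N z ∈ Subgroup.zpowers (QuotientGroup.mk' N x)
      ↔ z ∈ N ⊔ Subgroup.zpowers x := by
    constructor
    · intro h
      obtain ⟨k, hk⟩ := Subgroup.mem_zpowers_iff.1 h
      rw [← map_zpow] at hk
      have h2 : (x ^ k)⁻¹ * z ∈ N := QuotientGroup.eq.1 hk
      have e : z = x ^ k * ((x ^ k)⁻¹ * z) := by rw [mul_inv_cancel_left]
      rw [e]
      exact Subgroup.mul_mem _ (Subgroup.mem_sup_right (Subgroup.zpow_mem_zpowers x k))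
        (Subgroup.mem_sup_left h2)
    · intro h
      obtain ⟨n, hn, k, rfl⟩ := (mem_sup_zpowers_iff N x z).1 h
      have e0 : QuotientGroup.mk' N n = 1 := (QuotientGroup.eq_one_iff n).2 hn
      rw [map_mul, map_zpow, e0, one_mul]
      exact Subgroup.zpow_mem_zpowers _ k
  have h2 : (QuotientGroup.mk' N z) ^ (p ^ k) = 1 ↔ z ^ (p ^ k) ∈ N := by
    rw [← map_pow]
    exact QuotientGroup.eq_one_iff _
  show (QuotientGroup.mk' N z ∈ Subgroup.zpowers (QuotientGroup.mk' N x)
    ∧ (QuotientGroup.mk' N z) ^ (p ^ k) = 1) ↔ _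
  rw [h1, h2]

/-- A finite `p`-group centralizes each layer of a normal cyclic factor modulo the previous
layer. -/
theorem cycLayer_comm [Finite P] {p : ℕ} [Fact p.Prime] (hP : IsPGroup p P) (N : Subgroup P)
    [N.Normal] (x : P)
    (hM : ∀ y ∈ N ⊔ Subgroup.zpowers x, ∀ s : P, s * y * s⁻¹ ∈ N ⊔ Subgroup.zpowers x)
    (k : ℕ) (z : P) (hz : z ∈ cycLayer N x p (k + 1)) (s : P) :
    s * z * s⁻¹ * z⁻¹ ∈ cycLayer N x p k := by
  classical
  have hp : p.Prime := Fact.out
  obtain ⟨K, hK⟩ := IsPGroup.iff_card.1 hP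
  obtain ⟨hzM, hzp⟩ := (mem_cycLayer N x p (k + 1) z).1 hz
  have hγM : ∀ y ∈ N ⊔ Subgroup.zpowers x, (MulAut.conj s) y ∈ N ⊔ Subgroup.zpowers x :=
    fun y hy => hM y hy s
  obtain ⟨a, ha⟩ := pwAct_exists N x (MulAut.conj s)
    (fun y hy => by
      rw [MulAut.conj_apply]
      exact ‹N.Normal›.conj_mem y hy s)
    (hγM x (Subgroup.mem_sup_right (Subgroup.mem_zpowers x)))
  have ha1 := (pwAct_iff N x _ a).1 ha z hzM
  have hapow := (pwAct_iff N x _ _).1 (ha.pow hγM (p ^ K)) z hzM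
  have hconj1 : (MulAut.conj s) ^ (p ^ K) = 1 := by
    rw [← map_pow, ← hK, pow_card_eq_one', map_one]
  rw [hconj1] at hapow
  have hq2 : (QuotientGroup.mk' N z) ^ (a ^ (p ^ K)) = QuotientGroup.mk' N z := hapow.symm
  have hq3 : (QuotientGroup.mk' N z) ^ (p ^ (k + 1)) = 1 := by
    rw [← map_pow]
    exact (QuotientGroup.eq_one_iff _).2 hzp
  have ha1' : QuotientGroup.mk' N (s * z * s⁻¹) = (QuotientGroup.mk' N z) ^ a := ha1
  refine (mem_cycLayer N x p k _).2 ⟨?_, ?_⟩
  · exact Subgroup.mul_mem _ (hM z hzM s) (Subgroup.inv_mem _ hzM)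
  · have hgoal : QuotientGroup.mk' N ((s * z * s⁻¹ * z⁻¹) ^ (p ^ k)) = 1 := by
      rw [map_pow, map_mul, map_inv, ha1']
      generalize QuotientGroup.mk' N z = q at hq2 hq3 ⊢
      by_cases hq1 : q = 1
      · rw [hq1, one_pow, inv_one, mul_one, one_pow]
      · have hord : orderOf q ∣ p ^ (k + 1) := orderOf_dvd_of_pow_eq_one hq3
        have hpo : p ∣ orderOf q := by
          obtain ⟨j, hj, hj'⟩ := (Nat.dvd_prime_pow hp).1 hord
          rw [hj']
          have hj0 : j ≠ 0 := by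
            rintro rfl
            rw [pow_zero, orderOf_eq_one_iff] at hj'
            exact hq1 hj'
          exact dvd_pow_self p hj0
        have hmod : a ^ (p ^ K) ≡ 1 [MOD orderOf q] := by
          rw [← pow_eq_pow_iff_modEq, pow_one]; exact hq2
        have hmodp : a ^ (p ^ K) ≡ 1 [MOD p] := hmod.of_dvd hpo
        have hz1 : ((a ^ (p ^ K) : ℕ) : ZMod p) = ((1 : ℕ) : ZMod p) :=
          (ZMod.natCast_eq_natCast_iff _ _ _).2 hmodp
        rw [Nat.cast_pow, ZMod.pow_card_pow] at hz1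
        have hmoda : a ≡ 1 [MOD p] := (ZMod.natCast_eq_natCast_iff _ _ _).1 hz1
        have hamod : a % p = 1 := by
          have h1 : a % p = 1 % p := hmoda
          rw [Nat.mod_eq_of_lt hp.one_lt] at h1
          exact h1
        have hab : a = p * (a / p) + 1 := by
          have := Nat.div_add_mod a p
          rw [hamod] at this
          exact this.symm
        rw [hab, pow_succ, mul_inv_cancel_right, ← pow_mul]
        have e : p * (a / p) * p ^ k = p ^ (k + 1) * (a / p) := by ring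
        rw [e, pow_mul, hq3, one_pow]
    exact (QuotientGroup.eq_one_iff _).1 hgoal

end

end Cfsg.Agent.Lib.Helper85
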