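import Mathlib

set_option autoImplicit false

/-! Small groups of automorphisms of `C × C` of order prime to `p`, used to show that a group
with a direct factor `C_{p^n} × C_{p^n}` has a `p'`-group of automorphisms that is not abelian
of exponent dividing `p - 1`. -/

namespace Cfsg.Agent.Lib.Helper85

section
variable {C : Type*} [CommGroup C]

/-- the automorphism `(a, b) ↦ (b⁻¹, a b⁻¹)` of order 3 -/
def autThree (C : Type*) [CommGroup C] : MulAut (C × C) where
  toFun x := (x.2⁻¹, x.1 * x.2⁻¹)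
  invFun x := (x.1⁻¹ * x.2, x.1⁻¹)
  left_inv x := by
    refine Prod.ext ?_ ?_
    · show (x.2⁻¹)⁻¹ * (x.1 * x.2⁻¹) = x.1
      rw [inv_inv, mul_comm x.1, mul_inv_cancel_left]
    · show (x.2⁻¹)⁻¹ = x.2
      rw [inv_inv]
  right_inv x := by
    refine Prod.ext ?_ ?_
    · show (x.1⁻¹)⁻¹ = x.1
      rw [inv_inv]
    · show x.1⁻¹ * x.2 * (x.1⁻¹)⁻¹ = x.2
      rw [inv_inv, mul_comm x.1⁻¹ x.2, inv_mul_cancel_right]
  map_mul' x y := by
    refine Prod.ext ?_ ?_
    · show (x.2 * y.2)⁻¹ = x.2⁻¹ * y.2⁻¹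
      rw [mul_inv]
    · show x.1 * y.1 * (x.2 * y.2)⁻¹ = x.1 * x.2⁻¹ * (y.1 * y.2⁻¹)
      rw [mul_inv, mul_mul_mul_comm]

theorem autThree_apply (x : C × C) : autThree C x = (x.2⁻¹, x.1 * x.2⁻¹) := rfl

theorem autThree_inv_apply (x : C × C) : (autThree C)⁻¹ x = (x.1⁻¹ * x.2, x.1⁻¹) := rfl

theorem autThree_symm_apply (x : C × C) :
    (MulEquiv.symm (autThree C)) x = (x.1⁻¹ * x.2, x.1⁻¹) := rfl

theorem autThree_pow_three : (autThree C) ^ 3 = 1 := by
  have h : ∀ a b : C, (autThree C) ((autThree C) ((autThree C) (a, b))) = (a, b) := by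
    intro a b
    have e1 : (autThree C) (a, b) = (b⁻¹, a * b⁻¹) := rfl
    have e2 : (autThree C) (b⁻¹, a * b⁻¹) = ((a * b⁻¹)⁻¹, b⁻¹ * (a * b⁻¹)⁻¹) := rfl
    have e3 : (autThree C) ((a * b⁻¹)⁻¹, b⁻¹ * (a * b⁻¹)⁻¹)
        = ((b⁻¹ * (a * b⁻¹)⁻¹)⁻¹, (a * b⁻¹)⁻¹ * (b⁻¹ * (a * b⁻¹)⁻¹)⁻¹) := rfl
    rw [e1, e2, e3]
    have f1 : (a * b⁻¹)⁻¹ = a⁻¹ * b := by rw [mul_inv, inv_inv]
    have f2 : (b⁻¹ * (a⁻¹ * b))⁻¹ = a := by
      rw [mul_comm a⁻¹ b, inv_mul_cancel_left, inv_inv]
    rw [f1, f2, mul_comm a⁻¹ b, inv_mul_cancel_right]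
  ext x
  · exact congrArg Prod.fst (h x.1 x.2)
  · exact congrArg Prod.snd (h x.1 x.2)

/-- the automorphism `(a, b) ↦ (b⁻¹, a)` of order 4 -/
def autFour (C : Type*) [CommGroup C] : MulAut (C × C) where
  toFun x := (x.2⁻¹, x.1)
  invFun x := (x.2, x.1⁻¹)
  left_inv x := by
    refine Prod.ext rfl ?_
    show (x.2⁻¹)⁻¹ = x.2
    rw [inv_inv]
  right_inv x := by
    refine Prod.ext ?_ rfl
    show (x.1⁻¹)⁻¹ = x.1
    rw [inv_inv]
  map_mul' x y := by
    refine Prod.ext ?_ rfl
    show (x.2 * y.2)⁻¹ = x.2⁻¹ * y.2⁻¹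
    rw [mul_inv]

theorem autFour_apply (x : C × C) : autFour C x = (x.2⁻¹, x.1) := rfl

theorem autFour_pow_two_apply (x : C × C) : ((autFour C) ^ 2) x = (x.1⁻¹, x.2⁻¹) := rfl

theorem autFour_pow_four : (autFour C) ^ 4 = 1 := by
  ext x
  · show (((autFour C) ((autFour C) ((autFour C) ((autFour C) x))))).1 = x.1
    simp only [autFour_apply, inv_inv]
  · show (((autFour C) ((autFour C) ((autFour C) ((autFour C) x))))).2 = x.2
    simp only [autFour_apply, inv_inv]

/-- the swap automorphism -/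
def autSwap (C : Type*) [CommGroup C] : MulAut (C × C) := MulEquiv.prodComm

theorem autSwap_apply (x : C × C) : autSwap C x = (x.2, x.1) := rfl

theorem autSwap_inv_apply (x : C × C) : (autSwap C)⁻¹ x = (x.2, x.1) := rfl

theorem autSwap_symm_apply (x : C × C) : (MulEquiv.symm (autSwap C)) x = (x.2, x.1) := rfl

end

/-- automorphisms permuting a set -/
def stabSet {M : Type*} [Group M] (X : Set M) : Subgroup (MulAut M) where
  carrier := {k | ∀ x ∈ X, k x ∈ X ∧ k⁻¹ x ∈ X}
  mul_mem' := by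
    intro k l hk hl x hx
    refine ⟨(hk _ (hl x hx).1).1, ?_⟩
    rw [mul_inv_rev]
    exact (hl _ (hk x hx).2).2
  one_mem' := fun x hx => ⟨hx, by rw [inv_one]; exact hx⟩
  inv_mem' := by
    intro k hk x hx
    exact ⟨(hk x hx).2, by rw [inv_inv]; exact (hk x hx).1⟩

theorem card_stabSet_le {M : Type*} [Group M] (a b c : M)
    (hdet : ∀ k l : MulAut M, k a = l a → k b = l b → k = l) :
    Nat.card (stabSet ({a, b, c} : Set M)) ≤ 9 := by
  classical
  let X : Set M := {a, b, c}
  have haX : a ∈ X := by simp [X]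
  have hbX : b ∈ X := by simp [X]
  haveI : Finite X := by
    have : X.Finite := by simp [X]
    exact this.to_subtype
  let f : stabSet X → X × X := fun k => (⟨k.1 a, (k.2 a haX).1⟩, ⟨k.1 b, (k.2 b hbX).1⟩)
  have hf : Function.Injective f := by
    intro k l hkl
    have h1 : k.1 a = l.1 a := congrArg (fun q : X × X => (q.1 : M)) hkl
    have h2 : k.1 b = l.1 b := congrArg (fun q : X × X => (q.2 : M)) hkl
    exact Subtype.ext (hdet _ _ h1 h2)
  have h1 := Nat.card_le_card_of_injective f hf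
  have h2 : Nat.card X ≤ 3 := by
    rw [Nat.card_coe_set_eq]
    calc X.ncard ≤ ({b, c} : Set M).ncard + 1 := Set.ncard_insert_le a {b, c}
      _ ≤ (({c} : Set M).ncard + 1) + 1 := Nat.add_le_add_right (Set.ncard_insert_le b {c}) 1
      _ = 3 := by rw [Set.ncard_singleton]
  rw [Nat.card_prod] at h1
  calc Nat.card (stabSet X) ≤ Nat.card X * Nat.card X := h1
    _ ≤ 3 * 3 := Nat.mul_le_mul h2 h2
    _ = 9 := by norm_num

theorem coprime_of_le_nine {c p : ℕ} (hp : p.Prime) (hp5 : 5 ≤ p) (hc9 : c ≤ 9) (hc2 : 2 ∣ c)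
    (hc0 : 0 < c) : c.Coprime p := by
  rw [Nat.coprime_comm, Nat.Prime.coprime_iff_not_dvd hp]
  rintro ⟨m, rfl⟩
  have hm1 : m = 1 := by
    by_contra hne
    have hm0 : m ≠ 0 := by
      rintro rfl
      simp at hc0
    have hm2 : 2 ≤ m := by omega
    nlinarith
  subst hm1
  rw [mul_one] at hc2
  have := (Nat.prime_dvd_prime_iff_eq Nat.prime_two hp).1 hc2
  omega

/-- `C × C` for a nontrivial cyclic `p`-group `C` has a group of automorphisms of order prime
to `p` that is not abelian of exponent dividing `p - 1`. -/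
theorem exists_bad_aut_prod {p : ℕ} [Fact p.Prime] {n : ℕ} (hn : 0 < n) :
    ∃ K : Subgroup (MulAut (Multiplicative (ZMod (p ^ n)) × Multiplicative (ZMod (p ^ n)))),
      (Nat.card K).Coprime p ∧
        ¬ ((∀ a ∈ K, ∀ b ∈ K, a * b = b * a) ∧ ∀ k ∈ K, k ^ (p - 1) = 1) := by
  classical
  have hp : p.Prime := Fact.out
  haveI : Fact (1 < p ^ n) := ⟨Nat.one_lt_pow hn.ne' hp.one_lt⟩
  haveI : NeZero (p ^ n) := ⟨pow_ne_zero n hp.ne_zero⟩
  let g : Multiplicative (ZMod (p ^ n)) := Multiplicative.ofAdd 1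
  have hg1 : g ≠ 1 := by
    intro h
    have h1 : (1 : ZMod (p ^ n)) = 0 := congrArg Multiplicative.toAdd h
    exact one_ne_zero h1
  have hgen : ∀ c : Multiplicative (ZMod (p ^ n)), ∃ m : ℕ, c = g ^ m := by
    intro c
    refine ⟨(Multiplicative.toAdd c).val, ?_⟩
    apply Multiplicative.toAdd.injective
    rw [toAdd_pow, nsmul_eq_mul]
    show Multiplicative.toAdd c = ((Multiplicative.toAdd c).val : ZMod (p ^ n)) * (1 : ZMod (p ^ n))
    rw [mul_one, ZMod.natCast_zmod_val]
  rcases Nat.lt_or_ge p 5 with hlt | hge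
  · have h23 : p = 2 ∨ p = 3 := by
      have h2 := hp.two_le
      interval_cases p
      · exact Or.inl rfl
      · exact Or.inr rfl
      · exact absurd hp (by norm_num)
    rcases h23 with rfl | rfl
    · -- p = 2
      refine ⟨Subgroup.zpowers (autThree _), ?_, ?_⟩
      · rw [Nat.card_zpowers]
        exact Nat.Coprime.coprime_dvd_left (orderOf_dvd_of_pow_eq_one autThree_pow_three)
          (by decide)
      · rintro ⟨-, hexp⟩
        have h1 := hexp _ (Subgroup.mem_zpowers _)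
        rw [show (2 - 1 : ℕ) = 1 from rfl, pow_one] at h1
        have h2 := congrArg (fun k : MulAut (Multiplicative (ZMod (2 ^ n)) ×
          Multiplicative (ZMod (2 ^ n))) => (k (g, 1)).2) h1
        simp only [autThree_apply, MulAut.one_apply, inv_one, mul_one] at h2
        exact hg1 h2
    · -- p = 3
      refine ⟨Subgroup.zpowers (autFour _), ?_, ?_⟩
      · rw [Nat.card_zpowers]
        exact Nat.Coprime.coprime_dvd_left (orderOf_dvd_of_pow_eq_one autFour_pow_four)
          (by decide)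
      · rintro ⟨-, hexp⟩
        have h1 := hexp _ (Subgroup.mem_zpowers _)
        rw [show (3 - 1 : ℕ) = 2 from rfl] at h1
        have h2 := congrArg (fun k : MulAut (Multiplicative (ZMod (3 ^ n)) ×
          Multiplicative (ZMod (3 ^ n))) => (k (g, 1)).1) h1
        simp only [autFour_pow_two_apply, MulAut.one_apply] at h2
        -- g⁻¹ = g
        have h3 : (-1 : ZMod (3 ^ n)) = 1 := congrArg Multiplicative.toAdd h2
        have h4 : ((2 : ℕ) : ZMod (3 ^ n)) = 0 := by
          have : (1 : ZMod (3 ^ n)) + 1 = 0 := by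
            nth_rewrite 1 [← h3]
            rw [neg_add_cancel]
          rw [Nat.cast_ofNat, ← one_add_one_eq_two]
          exact this
        rw [ZMod.natCast_eq_zero_iff] at h4
        have h5 := Nat.le_of_dvd (by norm_num) h4
        have h6 : 3 ^ 1 ≤ 3 ^ n := Nat.pow_le_pow_right (by norm_num) hn
        omega
  · -- p ≥ 5
    let X : Set (Multiplicative (ZMod (p ^ n)) × Multiplicative (ZMod (p ^ n))) :=
      {(g, 1), (1, g), (g⁻¹, g⁻¹)}
    have hsw : autSwap _ ∈ stabSet X := by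
      intro x hx
      simp only [X, Set.mem_insert_iff, Set.mem_singleton_iff] at hx ⊢
      rcases hx with rfl | rfl | rfl <;>
        simp [autSwap_apply, autSwap_inv_apply, autSwap_symm_apply]
    have hth : autThree _ ∈ stabSet X := by
      intro x hx
      simp only [X, Set.mem_insert_iff, Set.mem_singleton_iff] at hx ⊢
      rcases hx with rfl | rfl | rfl <;>
        simp [autThree_apply, autThree_inv_apply, autThree_symm_apply]
    have hdet : ∀ k l : MulAut (Multiplicative (ZMod (p ^ n)) × Multiplicative (ZMod (p ^ n))),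
        k (g, 1) = l (g, 1) → k (1, g) = l (1, g) → k = l := by
      intro k l h1 h2
      ext ⟨c, d⟩ : 1
      obtain ⟨m, rfl⟩ := hgen c
      obtain ⟨m', rfl⟩ := hgen d
      have e : ((g ^ m, g ^ m') : Multiplicative (ZMod (p ^ n)) × Multiplicative (ZMod (p ^ n)))
          = (g, 1) ^ m * (1, g) ^ m' := by
        simp
      rw [e, map_mul, map_mul, map_pow, map_pow, map_pow, map_pow, h1, h2]
    have hcard := card_stabSet_le (g, 1) (1, g) (g⁻¹, g⁻¹) hdet
    have hswne : autSwap (Multiplicative (ZMod (p ^ n))) ≠ 1 := by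
      intro h
      have h2 := congrArg (fun k : MulAut (Multiplicative (ZMod (p ^ n)) ×
          Multiplicative (ZMod (p ^ n))) => (k (g, 1)).1) h
      simp only [autSwap_apply, MulAut.one_apply] at h2
      exact hg1 h2.symm
    have hsw2 : (autSwap (Multiplicative (ZMod (p ^ n)))) ^ 2 = 1 := by
      ext x <;> rfl
    haveI : Finite (stabSet X) := inferInstance
    have h2dvd : 2 ∣ Nat.card (stabSet X) := by
      have h1 : orderOf (autSwap (Multiplicative (ZMod (p ^ n)))) = 2 :=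
        orderOf_eq_prime hsw2 hswne
      have h2 := orderOf_dvd_natCard (⟨autSwap _, hsw⟩ : stabSet X)
      rw [← Subgroup.orderOf_coe] at h2
      rw [← h1]
      exact h2
    refine ⟨stabSet X, coprime_of_le_nine hp hge hcard h2dvd Nat.card_pos, ?_⟩
    rintro ⟨hcomm, -⟩
    have h1 := hcomm _ hsw _ hth
    have h2 := congrArg (fun k : MulAut (Multiplicative (ZMod (p ^ n)) ×
          Multiplicative (ZMod (p ^ n))) => (k (g, 1)).2) h1
    simp only [MulAut.mul_apply, autSwap_apply, autThree_apply, inv_one, mul_one, one_mul] at h2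
    -- 1 = g⁻¹
    exact hg1 (inv_eq_one.1 h2.symm)

/-- transfer along an isomorphism with a direct product -/
theorem exists_bad_aut {P : Type*} [Group P] {p : ℕ} [Fact p.Prime] {n : ℕ} (hn : 0 < n)
    {H₁ : Type*} [Group H₁]
    (ε : P ≃* (Multiplicative (ZMod (p ^ n)) × Multiplicative (ZMod (p ^ n))) × H₁) :
    ∃ K : Subgroup (MulAut P), (Nat.card K).Coprime p ∧
      ¬ ((∀ a ∈ K, ∀ b ∈ K, a * b = b * a) ∧ ∀ k ∈ K, k ^ (p - 1) = 1) := by
  obtain ⟨K₀, hK₀, hbad⟩ := exists_bad_aut_prod (p := p) hn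
  let Θ₁ : MulAut (Multiplicative (ZMod (p ^ n)) × Multiplicative (ZMod (p ^ n))) →*
      MulAut ((Multiplicative (ZMod (p ^ n)) × Multiplicative (ZMod (p ^ n))) × H₁) :=
    { toFun := fun θ => MulEquiv.prodCongr θ (MulEquiv.refl H₁)
      map_one' := by ext x <;> rfl
      map_mul' := by intro a b; ext x <;> rfl }
  let Θ : MulAut (Multiplicative (ZMod (p ^ n)) × Multiplicative (ZMod (p ^ n))) →* MulAut P :=
    (MulAut.congr ε.symm).toMonoidHom.comp Θ₁
  have hΘ₁ : Function.Injective Θ₁ := by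
    intro a b hab
    ext c : 1
    have h := congrArg (fun f : MulAut ((Multiplicative (ZMod (p ^ n)) ×
      Multiplicative (ZMod (p ^ n))) × H₁) => (f (c, 1)).1) hab
    exact h
  have hΘ : Function.Injective Θ := (MulAut.congr ε.symm).injective.comp hΘ₁
  refine ⟨K₀.map Θ, ?_, ?_⟩
  · rw [Subgroup.card_map_of_injective hΘ]
    exact hK₀
  · rintro ⟨hc, he⟩
    apply hbad
    refine ⟨fun a ha b hb => ?_, fun k hk => ?_⟩
    · apply hΘ
      rw [map_mul, map_mul]
      exact hc _ (Subgroup.mem_map_of_mem Θ ha) _ (Subgroup.mem_map_of_mem Θ hb)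
    · apply hΘ
      rw [map_pow, map_one]
      exact he _ (Subgroup.mem_map_of_mem Θ hk)

end Cfsg.Agent.Lib.Helper85
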