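import Mathlib
import Cfsg.Agent.Lib.Helper85.CycChain

set_option autoImplicit false

/-! A finite abelian `p`-group without repeated invariants has a series of characteristic
subgroups with cyclic factors. -/

namespace Cfsg.Agent.Lib.Helper85

section
variable {G : Type*} [CommGroup G]

/-- the elements `x` of `℧^b(G)` with `x ^ (p ^ a) ∈ ℧^(a+b+1)(G)` -/
def cab (G : Type*) [CommGroup G] (p b a : ℕ) : Subgroup G where
  carrier := {x | (∃ y : G, y ^ (p ^ b) = x) ∧ ∃ z : G, z ^ (p ^ (a + b + 1)) = x ^ (p ^ a)}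
  mul_mem' := by
    rintro x x' ⟨⟨y, hy⟩, z, hz⟩ ⟨⟨y', hy'⟩, z', hz'⟩
    exact ⟨⟨y * y', by rw [mul_pow, hy, hy']⟩, z * z', by rw [mul_pow, mul_pow, hz, hz']⟩
  one_mem' := ⟨⟨1, one_pow _⟩, 1, by rw [one_pow, one_pow]⟩
  inv_mem' := by
    rintro x ⟨⟨y, hy⟩, z, hz⟩
    exact ⟨⟨y⁻¹, by rw [inv_pow, hy]⟩, z⁻¹, by rw [inv_pow, inv_pow, hz]⟩

theorem mem_cab {p b a : ℕ} {x : G} : x ∈ cab G p b a ↔
    (∃ y : G, y ^ (p ^ b) = x) ∧ ∃ z : G, z ^ (p ^ (a + b + 1)) = x ^ (p ^ a) := Iff.rfl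

theorem cab_equiv {G' : Type*} [CommGroup G'] (ε : G ≃* G') {p b a : ℕ} {x : G} :
    ε x ∈ cab G' p b a ↔ x ∈ cab G p b a := by
  constructor
  · rintro ⟨⟨y, hy⟩, z, hz⟩
    refine ⟨⟨ε.symm y, ?_⟩, ε.symm z, ?_⟩
    · apply ε.injective; rw [map_pow, ε.apply_symm_apply, hy]
    · apply ε.injective; rw [map_pow, ε.apply_symm_apply, hz, map_pow]
  · rintro ⟨⟨y, hy⟩, z, hz⟩
    exact ⟨⟨ε y, by rw [← map_pow, hy]⟩, ε z, by rw [← map_pow, hz, map_pow]⟩

theorem cab_mono (p b a : ℕ) : cab G p b a ≤ cab G p b (a + 1) := by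
  rintro x ⟨hy, z, hz⟩
  refine ⟨hy, z, ?_⟩
  rw [pow_succ p a, pow_mul x, ← hz, ← pow_mul]
  congr 1
  ring

theorem pow_pow_eq_one_of_le {p K : ℕ} (hexp : ∀ x : G, x ^ (p ^ K) = 1) {A : ℕ} (hA : K ≤ A)
    (x : G) : x ^ (p ^ A) = 1 := by
  obtain ⟨d, rfl⟩ := Nat.exists_eq_add_of_le hA
  rw [pow_add, pow_mul, hexp, one_pow]

theorem cab_zero_top {p K : ℕ} (hexp : ∀ x : G, x ^ (p ^ K) = 1) {A : ℕ} (hA : K ≤ A) :
    cab G p 0 A = ⊤ := by
  ext x
  simp only [mem_cab, Subgroup.mem_top, iff_true]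
  exact ⟨⟨x, by rw [pow_zero, pow_one]⟩, 1, by rw [one_pow, pow_pow_eq_one_of_le hexp hA]⟩

theorem cab_bot {p K : ℕ} (hexp : ∀ x : G, x ^ (p ^ K) = 1) {B : ℕ} (hB : K ≤ B) (a : ℕ) :
    cab G p B a = ⊥ := by
  ext x
  rw [Subgroup.mem_bot]
  constructor
  · rintro ⟨⟨y, hy⟩, -⟩
    rw [← hy, pow_pow_eq_one_of_le hexp hB]
  · rintro rfl
    exact Subgroup.one_mem _

theorem cab_succ_eq {p K : ℕ} (hexp : ∀ x : G, x ^ (p ^ K) = 1) {A : ℕ} (hA : K ≤ A) (b : ℕ) :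
    cab G p (b + 1) A = cab G p b 0 := by
  ext x
  simp only [mem_cab]
  constructor
  · rintro ⟨⟨y, hy⟩, -⟩
    refine ⟨⟨y ^ p, ?_⟩, y, ?_⟩
    · rw [← pow_mul, ← pow_succ', hy]
    · rw [pow_zero, pow_one, zero_add, hy]
  · rintro ⟨-, z, hz⟩
    rw [pow_zero, pow_one, zero_add] at hz
    exact ⟨⟨z, hz⟩, 1, by rw [one_pow, pow_pow_eq_one_of_le hexp hA]⟩

/-- If all the factors `cab b (a+1) / cab b a` have rank at most one, the subgroups `cab b a`
form a characteristic series with cyclic steps. -/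
theorem cab_chain {p K : ℕ} (hexp : ∀ x : G, x ^ (p ^ K) = 1)
    (hrk : ∀ b a : ℕ, ∀ x ∈ cab G p b (a + 1), x ∉ cab G p b a → ∀ x' ∈ cab G p b (a + 1),
      ∃ k : ℕ, x' * (x ^ k)⁻¹ ∈ cab G p b a) :
    CycCh (fun R : Subgroup G => ∀ α : MulAut G, ∀ x ∈ R, α x ∈ R) ⊥ := by
  have hinv : ∀ b a, ∀ α : MulAut G, ∀ x ∈ cab G p b a, α x ∈ cab G p b a := by
    rintro b a α x ⟨⟨y, hy⟩, z, hz⟩
    exact ⟨⟨α y, by rw [← map_pow, hy]⟩, α z, by rw [← map_pow, hz, map_pow]⟩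
  have hstep : ∀ b a, ∃ x₀ : G, cab G p b (a + 1) = cab G p b a ⊔ Subgroup.zpowers x₀ := by
    intro b a
    by_cases h : ∃ x ∈ cab G p b (a + 1), x ∉ cab G p b a
    · obtain ⟨x, hx, hxn⟩ := h
      refine ⟨x, le_antisymm ?_ (sup_le (cab_mono p b a) ((Subgroup.zpowers_le).2 hx))⟩
      intro x' hx'
      obtain ⟨k, hk⟩ := hrk b a x hx hxn x' hx'
      have e : x' = (x' * (x ^ k)⁻¹) * x ^ k := by rw [inv_mul_cancel_right]
      rw [e]
      exact Subgroup.mul_mem _ (Subgroup.mem_sup_left hk)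
        (Subgroup.mem_sup_right (Subgroup.pow_mem _ (Subgroup.mem_zpowers x) k))
    · push_neg at h
      refine ⟨1, ?_⟩
      rw [Subgroup.zpowers_one_eq_bot, sup_bot_eq]
      exact le_antisymm h (cab_mono p b a)
  have hdown : ∀ b a, CycCh (fun R : Subgroup G => ∀ α : MulAut G, ∀ x ∈ R, α x ∈ R)
      (cab G p b a) → CycCh (fun R : Subgroup G => ∀ α : MulAut G, ∀ x ∈ R, α x ∈ R)
      (cab G p b 0) := by
    intro b a
    induction a with
    | zero => exact id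
    | succ a ih =>
      exact fun h => ih (CycCh.step _ _ (hinv b a) (cab_mono p b a) (hstep b a) h)
  have hQ : ∀ b, CycCh (fun R : Subgroup G => ∀ α : MulAut G, ∀ x ∈ R, α x ∈ R)
      (cab G p b 0) := by
    intro b
    induction b with
    | zero => exact hdown 0 K (by rw [cab_zero_top hexp le_rfl]; exact CycCh.top)
    | succ b ih => exact hdown (b + 1) K (by rw [cab_succ_eq hexp le_rfl]; exact ih)
  have h := hQ K
  rwa [cab_bot hexp le_rfl] at h

end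

/-! ### arithmetic in `ZMod (p ^ E)` -/

theorem zmod_ppow_zero (p E m : ℕ) (h : E ≤ m) : (p : ZMod (p ^ E)) ^ m = 0 := by
  have h1 : ((p ^ m : ℕ) : ZMod (p ^ E)) = 0 :=
    (ZMod.natCast_eq_zero_iff _ _).2 (pow_dvd_pow p h)
  rw [Nat.cast_pow] at h1
  exact h1

theorem zmod_div_p {p : ℕ} (hp : p.Prime) {E : ℕ} (hE : 1 ≤ E) (v : ZMod (p ^ E))
    (hv : (p : ZMod (p ^ E)) * v = 0) :
    ∃ t : ZMod (p ^ E), v = (p : ZMod (p ^ E)) ^ (E - 1) * t := by
  haveI : NeZero (p ^ E) := ⟨pow_ne_zero E hp.ne_zero⟩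
  have h1 : ((p * v.val : ℕ) : ZMod (p ^ E)) = 0 := by
    rw [Nat.cast_mul, ZMod.natCast_zmod_val]; exact hv
  rw [ZMod.natCast_eq_zero_iff] at h1
  have hpE : p ^ E = p * p ^ (E - 1) := by rw [← pow_succ', Nat.sub_add_cancel hE]
  obtain ⟨c, hc⟩ := h1
  have h3 : v.val = p ^ (E - 1) * c :=
    Nat.eq_of_mul_eq_mul_left hp.pos (by rw [hc, hpE, mul_assoc])
  refine ⟨(c : ZMod (p ^ E)), ?_⟩
  calc v = ((v.val : ℕ) : ZMod (p ^ E)) := (ZMod.natCast_zmod_val v).symm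
    _ = ((p ^ (E - 1) * c : ℕ) : ZMod (p ^ E)) := by rw [h3]
    _ = _ := by push_cast; rfl

theorem zmod_top_layer {p : ℕ} (hp : p.Prime) {E : ℕ} (hE : 1 ≤ E) (y y' : ZMod (p ^ E))
    (hy : (p : ZMod (p ^ E)) ^ (E - 1) * y ≠ 0) :
    ∃ k : ℕ, (p : ZMod (p ^ E)) ^ (E - 1) * (y' - (k : ZMod (p ^ E)) * y) = 0 := by
  haveI : NeZero (p ^ E) := ⟨pow_ne_zero E hp.ne_zero⟩
  have hpE : p ^ E = p ^ (E - 1) * p := by rw [← pow_succ, Nat.sub_add_cancel hE]
  have hnd : ¬ p ∣ y.val := by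
    rintro ⟨c, hc⟩
    apply hy
    have h1 : ((p ^ (E - 1) * y.val : ℕ) : ZMod (p ^ E)) = 0 := by
      rw [ZMod.natCast_eq_zero_iff, hc, ← mul_assoc, ← hpE]
      exact dvd_mul_right _ _
    rw [Nat.cast_mul, Nat.cast_pow, ZMod.natCast_zmod_val] at h1
    exact h1
  have hcop : Nat.Coprime y.val p := ((Nat.Prime.coprime_iff_not_dvd hp).2 hnd).symm
  obtain ⟨m, -, hm⟩ := Nat.exists_mul_mod_eq_one_of_coprime hcop hp.one_lt
  refine ⟨m * y'.val, ?_⟩
  have hq : y.val * m = p * (y.val * m / p) + 1 := by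
    have h := Nat.div_add_mod (y.val * m) p
    rw [hm] at h
    exact h.symm
  have hcast : (y : ZMod (p ^ E)) * (m : ZMod (p ^ E))
      = (p : ZMod (p ^ E)) * ((y.val * m / p : ℕ) : ZMod (p ^ E)) + 1 := by
    have h := congrArg (fun t : ℕ => (t : ZMod (p ^ E))) hq
    simp only [Nat.cast_mul, Nat.cast_add, Nat.cast_one, ZMod.natCast_zmod_val] at h
    exact h
  have hpz : (p : ZMod (p ^ E)) ^ (E - 1) * (p : ZMod (p ^ E)) = 0 := by
    have h1 : ((p ^ (E - 1) * p : ℕ) : ZMod (p ^ E)) = 0 :=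
      (ZMod.natCast_eq_zero_iff _ _).2 (dvd_of_eq hpE)
    rw [Nat.cast_mul, Nat.cast_pow] at h1
    exact h1
  have e : (p : ZMod (p ^ E)) ^ (E - 1) * (y' - ((m * y'.val : ℕ) : ZMod (p ^ E)) * y)
      = -(((p : ZMod (p ^ E)) ^ (E - 1) * p)
        * (((y.val * m / p : ℕ) : ZMod (p ^ E)) * y')) := by
    rw [Nat.cast_mul, ZMod.natCast_zmod_val]
    have h : y' - (m : ZMod (p ^ E)) * y' * y = y' * (1 - y * m) := by ring
    rw [h, hcast]
    ring
  rw [e, hpz, zero_mul, neg_zero]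

/-! ### the coordinate model -/

section
variable {ι : Type} [Fintype ι] {p : ℕ} {e : ι → ℕ}

theorem coord_pow (x : (i : ι) → Multiplicative (ZMod (p ^ e i))) (m : ℕ) (i : ι) :
    Multiplicative.toAdd ((x ^ m) i) = (m : ZMod (p ^ e i)) * Multiplicative.toAdd (x i) := by
  rw [Pi.pow_apply, toAdd_pow, nsmul_eq_mul]

theorem coord_ppow (x : (i : ι) → Multiplicative (ZMod (p ^ e i))) (m : ℕ) (i : ι) :
    Multiplicative.toAdd ((x ^ (p ^ m)) i)
      = (p : ZMod (p ^ e i)) ^ m * Multiplicative.toAdd (x i) := by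
  rw [coord_pow, Nat.cast_pow]

theorem model_key (hp : p.Prime) (b a : ℕ) (u : (i : ι) → Multiplicative (ZMod (p ^ e i)))
    (hu : u ∈ cab ((i : ι) → Multiplicative (ZMod (p ^ e i))) p b (a + 1)) (i : ι)
    (hi : e i ≠ a + b + 1) :
    ∃ w : ZMod (p ^ e i), (p : ZMod (p ^ e i)) ^ (a + b + 1) * w
      = (p : ZMod (p ^ e i)) ^ a * Multiplicative.toAdd (u i) := by
  obtain ⟨⟨y, hy⟩, z, hz⟩ := hu
  have h1 : (p : ZMod (p ^ e i)) ^ b * Multiplicative.toAdd (y i) = Multiplicative.toAdd (u i) := by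
    rw [← coord_ppow, hy]
  have h2 : (p : ZMod (p ^ e i)) ^ (a + 1 + b + 1) * Multiplicative.toAdd (z i)
      = (p : ZMod (p ^ e i)) ^ (a + 1) * Multiplicative.toAdd (u i) := by
    rw [← coord_ppow, ← coord_ppow, hz]
  rcases lt_or_gt_of_ne hi with hlt | hgt
  · refine ⟨0, ?_⟩
    rw [mul_zero, ← h1, ← mul_assoc, ← pow_add, zmod_ppow_zero p (e i) (a + b) (by omega),
      zero_mul]
  · have hE : 1 ≤ e i := by omega
    have hv : (p : ZMod (p ^ e i)) * ((p : ZMod (p ^ e i)) ^ a * Multiplicative.toAdd (u i)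
        - (p : ZMod (p ^ e i)) ^ (a + b + 1) * Multiplicative.toAdd (z i)) = 0 := by
      have e1 : (p : ZMod (p ^ e i)) * ((p : ZMod (p ^ e i)) ^ a * Multiplicative.toAdd (u i)
          - (p : ZMod (p ^ e i)) ^ (a + b + 1) * Multiplicative.toAdd (z i))
          = (p : ZMod (p ^ e i)) ^ (a + 1) * Multiplicative.toAdd (u i)
            - (p : ZMod (p ^ e i)) ^ (a + 1 + b + 1) * Multiplicative.toAdd (z i) := by ring
      rw [e1, h2, sub_self]
    obtain ⟨t, ht⟩ := zmod_div_p hp hE _ hv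
    refine ⟨Multiplicative.toAdd (z i) + (p : ZMod (p ^ e i)) ^ (e i - 1 - (a + b + 1)) * t, ?_⟩
    have e2 : (p : ZMod (p ^ e i)) ^ (e i - 1)
        = (p : ZMod (p ^ e i)) ^ (a + b + 1) * (p : ZMod (p ^ e i)) ^ (e i - 1 - (a + b + 1)) := by
      rw [← pow_add]
      congr 1
      omega
    rw [e2] at ht
    have e3 : (p : ZMod (p ^ e i)) ^ a * Multiplicative.toAdd (u i)
        = (p : ZMod (p ^ e i)) ^ (a + b + 1) * Multiplicative.toAdd (z i)
          + (p : ZMod (p ^ e i)) ^ (a + b + 1) * (p : ZMod (p ^ e i)) ^ (e i - 1 - (a + b + 1))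
            * t := by
      rw [← ht]; ring
    rw [e3]; ring

theorem model_crit (hp : p.Prime) (b a : ℕ) (u : (i : ι) → Multiplicative (ZMod (p ^ e i)))
    (hu : u ∈ cab ((i : ι) → Multiplicative (ZMod (p ^ e i))) p b (a + 1))
    (h0 : ∀ j, e j = a + b + 1 →
      (p : ZMod (p ^ e j)) ^ a * Multiplicative.toAdd (u j) = 0) :
    u ∈ cab ((i : ι) → Multiplicative (ZMod (p ^ e i))) p b a := by
  classical
  have hkey := model_key hp b a u hu
  refine ⟨hu.1, fun i => Multiplicative.ofAdd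
    (if h : e i = a + b + 1 then (0 : ZMod (p ^ e i)) else Classical.choose (hkey i h)), ?_⟩
  funext i
  apply Multiplicative.toAdd.injective
  rw [coord_ppow, coord_ppow]
  by_cases h : e i = a + b + 1
  · simp only [dif_pos h, toAdd_ofAdd, mul_zero]
    exact (h0 i h).symm
  · have hs := Classical.choose_spec (hkey i h)
    simp only [dif_neg h, toAdd_ofAdd]
    exact hs

theorem model_rk1 (hp : p.Prime) (he : Function.Injective e) (b a : ℕ) :
    ∀ x ∈ cab ((i : ι) → Multiplicative (ZMod (p ^ e i))) p b (a + 1),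
      x ∉ cab ((i : ι) → Multiplicative (ZMod (p ^ e i))) p b a →
      ∀ x' ∈ cab ((i : ι) → Multiplicative (ZMod (p ^ e i))) p b (a + 1),
        ∃ k : ℕ, x' * (x ^ k)⁻¹ ∈ cab ((i : ι) → Multiplicative (ZMod (p ^ e i))) p b a := by
  intro x hx hxn x' hx'
  have hj : ∃ j, e j = a + b + 1 ∧
      (p : ZMod (p ^ e j)) ^ a * Multiplicative.toAdd (x j) ≠ 0 := by
    by_contra hcon
    push_neg at hcon
    exact hxn (model_crit hp b a x hx hcon)
  obtain ⟨j, hje, hjx⟩ := hj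
  obtain ⟨y, hy⟩ := hx.1
  obtain ⟨y', hy'⟩ := hx'.1
  have h1 : (p : ZMod (p ^ e j)) ^ b * Multiplicative.toAdd (y j) = Multiplicative.toAdd (x j) := by
    rw [← coord_ppow, hy]
  have h1' : (p : ZMod (p ^ e j)) ^ b * Multiplicative.toAdd (y' j)
      = Multiplicative.toAdd (x' j) := by
    rw [← coord_ppow, hy']
  have hE : e j - 1 = a + b := by omega
  have hE1 : 1 ≤ e j := by omega
  have hyne : (p : ZMod (p ^ e j)) ^ (e j - 1) * Multiplicative.toAdd (y j) ≠ 0 := by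
    rw [hE, pow_add, mul_assoc, h1]
    exact hjx
  obtain ⟨k, hk⟩ := zmod_top_layer hp hE1 (Multiplicative.toAdd (y j))
    (Multiplicative.toAdd (y' j)) hyne
  refine ⟨k, model_crit hp b a _ (Subgroup.mul_mem _ hx' (Subgroup.inv_mem _
    (Subgroup.pow_mem _ hx k))) ?_⟩
  intro j' hj'
  have hjj : j' = j := he (hj'.trans hje.symm)
  subst hjj
  have e1 : Multiplicative.toAdd ((x' * (x ^ k)⁻¹) j')
      = Multiplicative.toAdd (x' j') - (k : ZMod (p ^ e j')) * Multiplicative.toAdd (x j') := by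
    rw [Pi.mul_apply, Pi.inv_apply, toAdd_mul, toAdd_inv, coord_pow, sub_eq_add_neg]
  rw [e1, ← h1, ← h1']
  rw [hE] at hk
  have e2 : (p : ZMod (p ^ e j')) ^ a * ((p : ZMod (p ^ e j')) ^ b * Multiplicative.toAdd (y' j')
      - (k : ZMod (p ^ e j')) * ((p : ZMod (p ^ e j')) ^ b * Multiplicative.toAdd (y j')))
      = (p : ZMod (p ^ e j')) ^ (a + b) * (Multiplicative.toAdd (y' j')
        - (k : ZMod (p ^ e j')) * Multiplicative.toAdd (y j')) := by
    ring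
  rw [e2, hk]

end

/-- split two coordinates off a product -/
def splitTwo {ι : Type*} [DecidableEq ι] (M : ι → Type*) [∀ i, Group (M i)] (j j' : ι)
    (hjj' : j ≠ j') :
    ((i : ι) → M i) ≃* (M j × M j') × ((k : {k : ι // k ≠ j ∧ k ≠ j'}) → M k) where
  toFun f := ((f j, f j'), fun k => f k.1)
  invFun q := fun i => if h : i = j then h ▸ q.1.1 else if h' : i = j' then h' ▸ q.1.2
    else q.2 ⟨i, h, h'⟩
  left_inv f := by
    funext i
    by_cases h : i = j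
    · subst h; simp
    · by_cases h' : i = j'
      · subst h'; simp [h]
      · simp [h, h']
  right_inv q := by
    obtain ⟨⟨a, b⟩, g⟩ := q
    refine Prod.ext (Prod.ext ?_ ?_) ?_
    · simp
    · simp [hjj'.symm]
    · funext k; simp [k.2.1, k.2.2]
  map_mul' f g := rfl

theorem cast_zmod_equiv (p : ℕ) : ∀ a b : ℕ, a = b →
    Nonempty (Multiplicative (ZMod (p ^ a)) ≃* Multiplicative (ZMod (p ^ b))) := by
  rintro a b rfl
  exact ⟨MulEquiv.refl _⟩

/-- A finite abelian `p`-group without repeated invariants has a characteristic series with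
cyclic steps. -/
theorem abel_char_chain {P : Type*} [Group P] [Finite P] {p : ℕ} [Fact p.Prime]
    (hP : IsPGroup p P) (hcomm : ∀ a b : P, a * b = b * a)
    (hno : ¬ ∃ (n : ℕ) (H : Type) (_ : CommGroup H), 0 < n ∧
      Nonempty (P ≃* (Multiplicative (ZMod (p ^ n)) × Multiplicative (ZMod (p ^ n))) × H)) :
    CycCh (fun R : Subgroup P => ∀ α : MulAut P, ∀ x ∈ R, α x ∈ R) ⊥ := by
  classical
  have hp : p.Prime := Fact.out
  letI instC : CommGroup P := { ‹Group P› with mul_comm := hcomm }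
  obtain ⟨ι, _, n, hn1, ⟨ε⟩⟩ := CommGroup.equiv_prod_multiplicative_zmod_of_finite P
  obtain ⟨K, hK⟩ := IsPGroup.iff_card.1 hP
  have hnp : ∀ i, ∃ m, n i = p ^ m := by
    intro i
    have hcard : Nat.card P = ∏ j, n j := by
      rw [Nat.card_congr ε.toEquiv, Nat.card_pi]
      refine Finset.prod_congr rfl (fun j _ => ?_)
      exact Nat.card_zmod (n j)
    have hdvd : n i ∣ p ^ K := by
      rw [← hK, hcard]
      exact Finset.dvd_prod_of_mem n (Finset.mem_univ i)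
    obtain ⟨m, -, hm⟩ := (Nat.dvd_prime_pow hp).1 hdvd
    exact ⟨m, hm⟩
  choose e he using hnp
  obtain rfl : n = fun i => p ^ e i := funext he
  have hinj : Function.Injective e := by
    intro j j' hjj'
    by_contra hne
    apply hno
    refine ⟨e j, (k : {k : ι // k ≠ j ∧ k ≠ j'}) → Multiplicative (ZMod (p ^ e k)),
      inferInstance, ?_, ?_⟩
    · by_contra h0
      have h00 : e j = 0 := by omega
      have h1 := hn1 j
      simp only [h00, pow_zero] at h1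
      exact lt_irrefl _ h1
    · obtain ⟨c⟩ := cast_zmod_equiv p (e j') (e j) hjj'.symm
      exact ⟨ε.trans ((splitTwo (fun i => Multiplicative (ZMod (p ^ e i))) j j' hne).trans
        (MulEquiv.prodCongr (MulEquiv.prodCongr (MulEquiv.refl _) c) (MulEquiv.refl _)))⟩
  have hexp : ∀ x : P, x ^ (p ^ K) = 1 := fun x => by rw [← hK]; exact pow_card_eq_one'
  refine cab_chain hexp ?_
  intro b a x hx hxn x' hx'
  obtain ⟨k, hk⟩ := model_rk1 hp hinj b a (ε x) ((cab_equiv ε).2 hx)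
    (fun h => hxn ((cab_equiv ε).1 h)) (ε x') ((cab_equiv ε).2 hx')
  refine ⟨k, (cab_equiv ε).1 ?_⟩
  rw [map_mul, map_inv, map_pow]
  exact hk

end Cfsg.Agent.Lib.Helper85
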