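import Cfsg.Agent.Lib.Helper85.ModelPSolv
import Cfsg.Agent.Lib.Helper85.FusionFactor
import Cfsg.Agent.Lib.Helper84.Model3
import Cfsg.Agent.Lib.Helper87.SC3
import Cfsg.Agent.Lib.Helper88.FusCentric

set_option autoImplicit false
open Cfsg Cfsg.FusionSystem

namespace Cfsg.Agent.Lib.Helper85.ConsNormal

open Cfsg.Agent.Lib.Helper85 Cfsg.Agent.Lib.Helper63 Cfsg.Agent.Lib.Helper85.ModelCore

section grp

variable {G : Type*} [Group G]

/-- Elements acting trivially on `Q'/T'` and on `T'`. -/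
def stabSeries (Q' T' : Subgroup G) [hQ : Q'.Normal] [hT : T'.Normal] : Subgroup G where
  carrier := {g | (∀ q ∈ Q', g * q * g⁻¹ * q⁻¹ ∈ T') ∧ ∀ t ∈ T', g * t = t * g}
  one_mem' := by
    refine ⟨fun q _ => ?_, fun t _ => by simp⟩
    simp
  mul_mem' := by
    rintro a b ⟨ha1, ha2⟩ ⟨hb1, hb2⟩
    refine ⟨fun q hq => ?_, fun t ht => ?_⟩
    · have h1 : a * (b * q * b⁻¹ * q⁻¹) * a⁻¹ ∈ T' := hT.conj_mem _ (hb1 q hq) a
      have h2 := T'.mul_mem h1 (ha1 q hq)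
      have h3 : a * (b * q * b⁻¹ * q⁻¹) * a⁻¹ * (a * q * a⁻¹ * q⁻¹) = a * b * q * (a * b)⁻¹ * q⁻¹ := by
        group
      rwa [h3] at h2
    · rw [mul_assoc, hb2 t ht, ← mul_assoc, ha2 t ht, mul_assoc]
  inv_mem' := by
    rintro a ⟨ha1, ha2⟩
    refine ⟨fun q hq => ?_, fun t ht => ?_⟩
    · have hq' : a⁻¹ * q * a ∈ Q' := by
        have := hQ.conj_mem _ hq a⁻¹
        simpa using this
      have h1 := T'.inv_mem (ha1 _ hq')
      have h2 : (a * (a⁻¹ * q * a) * a⁻¹ * (a⁻¹ * q * a)⁻¹)⁻¹ = a⁻¹ * q * a⁻¹⁻¹ * q⁻¹ := by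
        group
      rwa [h2] at h1
    · have := ha2 t ht
      calc a⁻¹ * t = a⁻¹ * (t * a) * a⁻¹ := by group
        _ = a⁻¹ * (a * t) * a⁻¹ := by rw [this]
        _ = t * a⁻¹ := by group

theorem mem_stabSeries {Q' T' : Subgroup G} [hQ : Q'.Normal] [hT : T'.Normal] {g : G} :
    g ∈ stabSeries Q' T' ↔ (∀ q ∈ Q', g * q * g⁻¹ * q⁻¹ ∈ T') ∧ ∀ t ∈ T', g * t = t * g :=
  Iff.rfl

instance stabSeries_normal (Q' T' : Subgroup G) [hQ : Q'.Normal] [hT : T'.Normal] :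
    (stabSeries Q' T').Normal := by
  constructor
  rintro g ⟨hg1, hg2⟩ h
  refine ⟨fun q hq => ?_, fun t ht => ?_⟩
  · have hq' : h⁻¹ * q * h ∈ Q' := by
      have := hQ.conj_mem _ hq h⁻¹
      simpa using this
    have h1 := hT.conj_mem _ (hg1 _ hq') h
    have h2 : h * (g * (h⁻¹ * q * h) * g⁻¹ * (h⁻¹ * q * h)⁻¹) * h⁻¹
        = h * g * h⁻¹ * q * (h * g * h⁻¹)⁻¹ * q⁻¹ := by group
    rwa [h2] at h1
  · have ht' : h⁻¹ * t * h ∈ T' := by
      have := hT.conj_mem _ ht h⁻¹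
      simpa using this
    have h1 := hg2 _ ht'
    calc h * g * h⁻¹ * t = h * (g * (h⁻¹ * t * h)) * h⁻¹ := by group
      _ = h * ((h⁻¹ * t * h) * g) * h⁻¹ := by rw [h1]
      _ = t * (h * g * h⁻¹) := by group

theorem stabSeries_pow_conj {Q' T' : Subgroup G} [hQ : Q'.Normal] [hT : T'.Normal] {g : G}
    (hg : g ∈ stabSeries Q' T') {q : G} (hq : q ∈ Q') (k : ℕ) :
    g ^ k * q * (g ^ k)⁻¹ = (g * q * g⁻¹ * q⁻¹) ^ k * q := by
  induction k with
  | zero => simp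
  | succ k ih =>
    have ht := hg.1 q hq
    have hc := hg.2 _ (T'.pow_mem ht k)
    calc g ^ (k + 1) * q * (g ^ (k + 1))⁻¹ = g * (g ^ k * q * (g ^ k)⁻¹) * g⁻¹ := by
          rw [pow_succ']; group
      _ = g * ((g * q * g⁻¹ * q⁻¹) ^ k * q) * g⁻¹ := by rw [ih]
      _ = (g * (g * q * g⁻¹ * q⁻¹) ^ k) * q * g⁻¹ := by group
      _ = ((g * q * g⁻¹ * q⁻¹) ^ k * g) * q * g⁻¹ := by rw [hc]
      _ = (g * q * g⁻¹ * q⁻¹) ^ k * (g * q * g⁻¹ * q⁻¹) * q := by group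
      _ = (g * q * g⁻¹ * q⁻¹) ^ (k + 1) * q := by rw [pow_succ]

theorem eq_one_of_pow_coprime {x : G} {m n : ℕ} (hm : x ^ m = 1) (hn : x ^ n = 1)
    (h : Nat.Coprime m n) : x = 1 := by
  have h1 : orderOf x ∣ m := orderOf_dvd_of_pow_eq_one hm
  have h2 : orderOf x ∣ n := orderOf_dvd_of_pow_eq_one hn
  have h3 : orderOf x ∣ Nat.gcd m n := Nat.dvd_gcd h1 h2
  rw [h] at h3
  exact orderOf_eq_one_iff.mp (Nat.dvd_one.mp h3)

/-- An element stabilizing a normal series `1 ≤ T' ≤ O_p(G)` lies in `O_p(G)` when `C_G(O_p(G)) ≤ O_p(G)`. -/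
theorem mem_pCore_of_stabilizes [Finite G] {p : ℕ} [Fact p.Prime]
    (hc : Subgroup.centralizer ((pCore p G : Subgroup G) : Set G) ≤ pCore p G)
    (T' : Subgroup G) [hT : T'.Normal] (hT' : T' ≤ pCore p G) {X : G}
    (h1 : ∀ q ∈ pCore p G, X * q * X⁻¹ * q⁻¹ ∈ T') (h2 : ∀ t ∈ T', X * t = t * X) :
    X ∈ pCore p G := by
  haveI hQn : (pCore p G).Normal :=
    @Subgroup.normal_of_characteristic _ _ _ (pCore_characteristic' p G)
  have hQp : IsPGroup p (pCore p G) := pCore_isPGroup' p G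
  have hX : X ∈ stabSeries (pCore p G) T' := ⟨h1, h2⟩
  have hp : IsPGroup p (stabSeries (pCore p G) T') := by
    rintro ⟨g, hg⟩
    have hpos : orderOf g ≠ 0 := (orderOf_pos g).ne'
    obtain ⟨a, m, hpm, hn⟩ := Nat.exists_eq_pow_mul_and_not_dvd hpos p (Nat.Prime.ne_one Fact.out)
    refine ⟨a, ?_⟩
    apply Subtype.ext
    show g ^ p ^ a = 1
    have hg1 : g ^ p ^ a ∈ stabSeries (pCore p G) T' := Subgroup.pow_mem _ hg _
    have hgm : (g ^ p ^ a) ^ m = 1 := by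
      rw [← pow_mul, ← hn]
      exact pow_orderOf_eq_one g
    have hcop : ∀ b : ℕ, Nat.Coprime m (p ^ b) := fun b =>
      Nat.Coprime.pow_right _ ((Nat.Prime.coprime_iff_not_dvd Fact.out).mpr hpm).symm
    have hcen : g ^ p ^ a ∈ Subgroup.centralizer ((pCore p G : Subgroup G) : Set G) := by
      rw [Subgroup.mem_centralizer_iff]
      intro q hq
      have hq' : q ∈ pCore p G := hq
      have h3 := stabSeries_pow_conj hg1 hq' m
      rw [hgm] at h3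
      have ht := hg1.1 q hq'
      have htm : (g ^ p ^ a * q * (g ^ p ^ a)⁻¹ * q⁻¹) ^ m = 1 := by
        have : (1 : G) * q * (1 : G)⁻¹ = q := by group
        rw [this] at h3
        exact (mul_eq_right.mp h3.symm)
      obtain ⟨b, hb⟩ := (IsPGroup.iff_orderOf.mp hQp) ⟨_, hT' ht⟩
      have htb : (g ^ p ^ a * q * (g ^ p ^ a)⁻¹ * q⁻¹) ^ p ^ b = 1 := by
        have := pow_orderOf_eq_one (⟨_, hT' ht⟩ : pCore p G)
        rw [hb] at this
        exact congrArg Subtype.val this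
      have h4 := eq_one_of_pow_coprime htm htb (hcop b)
      have h5 : g ^ p ^ a * q * (g ^ p ^ a)⁻¹ = q := by
        have := congrArg (· * q) h4
        simpa using this
      calc q * g ^ p ^ a = (g ^ p ^ a * q * (g ^ p ^ a)⁻¹) * g ^ p ^ a := by rw [h5]
        _ = g ^ p ^ a * q := by group
    have hmem := hc hcen
    obtain ⟨b, hb⟩ := (IsPGroup.iff_orderOf.mp hQp) ⟨_, hmem⟩
    have hgb : (g ^ p ^ a) ^ p ^ b = 1 := by
      have := pow_orderOf_eq_one (⟨_, hmem⟩ : pCore p G)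
      rw [hb] at this
      exact congrArg Subtype.val this
    exact eq_one_of_pow_coprime hgm hgb (hcop b)
  exact le_pCore' (stabSeries_normal _ _) hp hX

end grp

section fus

universe u

open Cfsg.Agent.Lib

variable {Ω : Type u} [Group Ω] {S : Subgroup Ω} {G : Type*} [Group G]

/-- For `Q' ⊴ G` inside the image of `S` and `U` strongly closed, the image of `U ∩ Q` is normal in `G`. -/
theorem normal_imSub_inf {F : FusionSystem S} {ι : S →* G} (hreal : F.IsRealizedBy ι)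
    (Q' : Subgroup G) [hn : Q'.Normal] (hQ' : Q' ≤ ι.range) {U : Subgroup Ω}
    (hU : F.StronglyClosed U) : (imSub ι (U ⊓ preSub ι Q')).Normal := by
  constructor
  intro y hy h
  obtain ⟨t, ⟨htU, htQ⟩, rfl⟩ := mem_imSub.mp hy
  have hQS : preSub ι Q' ≤ S := preSub_le ι Q'
  have hhQ : ∀ x : ↥(preSub ι Q'), h * ι ⟨x, hQS x.2⟩ * h⁻¹ ∈ ι.range := fun x =>
    hQ' (hn.conj_mem _ (map_mem_of_mem_preSub x) h)
  obtain ⟨ψ, hψ, hψS, hψh⟩ := conj_hom_mem hreal hQS h hhQ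
  have h1 := hψh ⟨t, htQ⟩
  have h2 : ψ ⟨t, htQ⟩ ∈ U := (stronglyClosed_mem_iff F hU hψ ⟨t, htQ⟩).mpr htU
  have h3 : ψ ⟨t, htQ⟩ ∈ preSub ι Q' :=
    mem_preSub.mpr ⟨hψS _, by rw [h1]; exact hn.conj_mem _ (mem_preSub.mp htQ).2 h⟩
  refine mem_imSub.mpr ⟨⟨ψ ⟨t, htQ⟩, hψS _⟩, ⟨h2, h3⟩, ?_⟩
  rw [h1]

theorem isNormal_inf [Finite S] {p : ℕ} [Fact p.Prime] (hS : IsPGroup p S)
    {F : FusionSystem S} {ι : S →* G} (hreal : F.IsRealizedBy ι)
    (Q' : Subgroup G) [hn : Q'.Normal] (hQ' : Q' ≤ ι.range) {U : Subgroup Ω} {D : FusionSystem U}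
    (hD : D.IsSaturated p) (hDF : D.IsSubsystemOf F) (hU : F.StronglyClosed U) :
    D.IsNormal (U ⊓ preSub ι Q') := by
  have hUS : U ≤ S := hU.1
  haveI : Finite U := Finite.of_injective _ (Subgroup.inclusion_injective hUS)
  have hpU : IsPGroup p U := hS.to_le hUS
  have hQn : F.IsNormal (preSub ι Q') := isNormal_preSub hreal Q' hQ'
  have hQsc : F.StronglyClosed (preSub ι Q') := Helper87.isNormal_stronglyClosed F hQn
  have hinv : ∀ (R : Subgroup Ω) (φ : R →* Ω), φ ∈ D.Hom R → ∀ x : R,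
      (x : Ω) ∈ U ⊓ preSub ι Q' → φ x ∈ U ⊓ preSub ι Q' := by
    intro R φ hφ x hx
    have hφF := hDF R hφ
    exact ⟨(stronglyClosed_mem_iff F hU hφF x).mpr hx.1,
      (stronglyClosed_mem_iff F hQsc hφF x).mpr hx.2⟩
  have hUN : U ≤ Subgroup.normalizer ((U ⊓ preSub ι Q' : Subgroup Ω) : Set Ω) := by
    intro u hu
    rw [Subgroup.mem_normalizer_iff]
    intro t
    constructor
    · intro ht
      exact hinv _ _ (D.conj_mem inf_le_left hu) ⟨t, ht⟩ ht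
    · intro ht
      have hu' : u⁻¹ ∈ U := U.inv_mem hu
      have h1 := hinv _ _ (D.conj_mem inf_le_left hu') ⟨_, ht⟩ ht
      have h2 : u⁻¹ * (u * t * u⁻¹) * u⁻¹⁻¹ = t := by group
      rw [← h2]
      exact h1
  refine Helper87.isNormal_of_aut_invariant hpU D hD inf_le_left hUN ?_
  intro R hfa hrec hc hr
  have hRU : R ≤ U := hc.1
  have hRS : R ≤ S := hRU.trans hUS
  have hinvR : ∀ α ∈ D.autGroup R, ∀ x : R, (x : Ω) ∈ U ⊓ preSub ι Q' →
      ((α x : R) : Ω) ∈ U ⊓ preSub ι Q' := by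
    intro α hα x hx
    exact hinv R _ ((Helper87.mem_autGroup_iff D hRU α).1 hα) x hx
  refine ⟨?_, hinvR⟩
  by_contra hnle
  have hlt : R < R ⊔ (U ⊓ preSub ι Q') :=
    lt_of_le_of_ne le_sup_left (fun h => hnle (sup_eq_left.mp h.symm))
  have hgrow := Helper88.normalizer_grow hpU (sup_le hRU inf_le_left : R ⊔ (U ⊓ preSub ι Q') ≤ U) hlt
  obtain ⟨g, hg, hgR⟩ := SetLike.exists_of_lt hgrow
  obtain ⟨hgsup, hgN⟩ := hg
  have hRN : R ≤ Subgroup.normalizer ((U ⊓ preSub ι Q' : Subgroup Ω) : Set Ω) := hRU.trans hUN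
  have hcoe := Subgroup.coe_mul_of_left_le_normalizer_right R (U ⊓ preSub ι Q') hRN
  have hg' : g ∈ ((R ⊔ (U ⊓ preSub ι Q') : Subgroup Ω) : Set Ω) := hgsup
  rw [hcoe] at hg'
  obtain ⟨r, hr', t, ht, rfl⟩ := Set.mem_mul.mp hg'
  have htN : t ∈ Subgroup.normalizer (R : Set Ω) := by
    have := Subgroup.mul_mem _ (Subgroup.inv_mem _ (Subgroup.le_normalizer hr')) hgN
    simpa using this
  have htR : t ∉ R := fun h => hgR (R.mul_mem hr' h)
  apply htR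
  refine Helper87.mem_of_conjAut_mem_normal_pSubgroup D hc hr (autInducedBy (U ⊓ preSub ι Q') R)
    ?_ ?_ ?_ (ht.1 : t ∈ U) htN (Helper87.conjAut_mem_autInducedBy (U ⊓ preSub ι Q') R ht htN)
  · intro β hβ
    obtain ⟨g, hg, hga⟩ := (Helper87.mem_autInducedBy_iff (U ⊓ preSub ι Q') R β).1 hβ
    exact Helper87.autInducedBy_le_autGroup D hRU
      ((Helper87.mem_autInducedBy_iff U R β).2 ⟨g, hg.1, hga⟩)
  · intro α hα β hβ
    obtain ⟨g, hg, hga⟩ := (Helper87.mem_autInducedBy_iff (U ⊓ preSub ι Q') R β).1 hβ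
    have hαF : R.subtype.comp α.toMonoidHom ∈ F.Hom R :=
      hDF R ((Helper87.mem_autGroup_iff D hRU α).1 hα)
    have hαS : ∀ x : R, (R.subtype.comp α.toMonoidHom) x ∈ S := fun x => hRS (α x).2
    obtain ⟨h, hh⟩ := (hreal.2 R hRS _ hαS).1 hαF
    have hgS : g ∈ S := hUS hg.1
    have hnT := normal_imSub_inf hreal Q' hQ' hU
    have hconj := hnT.conj_mem _ (mem_imSub.mpr ⟨⟨g, hgS⟩, hg, rfl⟩) h
    obtain ⟨g', hg'T, hg'eq⟩ := mem_imSub.mp hconj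
    refine (Helper87.mem_autInducedBy_iff (U ⊓ preSub ι Q') R _).2 ⟨g', hg'T, fun x => ?_⟩
    have hx : x = α (α⁻¹ x) := by simp
    have e1 : ((α * β * α⁻¹) x) = α (β (α⁻¹ x)) := rfl
    have hβy : ((β (α⁻¹ x) : R) : Ω) = g * ((α⁻¹ x : R) : Ω) * g⁻¹ := hga _
    have a1 : ι ⟨((α (β (α⁻¹ x)) : R) : Ω), hRS (α (β (α⁻¹ x))).2⟩
        = h * ι ⟨((β (α⁻¹ x) : R) : Ω), hRS (β (α⁻¹ x)).2⟩ * h⁻¹ := hh (β (α⁻¹ x))
    have a2 : ι ⟨((α (α⁻¹ x) : R) : Ω), hRS (α (α⁻¹ x)).2⟩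
        = h * ι ⟨((α⁻¹ x : R) : Ω), hRS (α⁻¹ x).2⟩ * h⁻¹ := hh (α⁻¹ x)
    have a3 : (⟨((β (α⁻¹ x) : R) : Ω), hRS (β (α⁻¹ x)).2⟩ : S)
        = ⟨g, hgS⟩ * ⟨((α⁻¹ x : R) : Ω), hRS (α⁻¹ x).2⟩ * ⟨g, hgS⟩⁻¹ := Subtype.ext hβy
    have a4 : (⟨(x : Ω), hRS x.2⟩ : S) = ⟨((α (α⁻¹ x) : R) : Ω), hRS (α (α⁻¹ x)).2⟩ := by
      apply Subtype.ext
      show (x : Ω) = ((α (α⁻¹ x) : R) : Ω)
      rw [← hx]
    have key : ι ⟨((α (β (α⁻¹ x)) : R) : Ω), hRS (α (β (α⁻¹ x))).2⟩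
        = ι (g' * ⟨x, hRS x.2⟩ * g'⁻¹) := by
      rw [map_mul, map_mul, map_inv, hg'eq, a4, a1, a2, a3, map_mul, map_mul, map_inv]
      group
    have h5 := hreal.1 key
    rw [e1]
    exact congrArg Subtype.val h5
  · exact Helper87.isPGroup_autInducedBy (hpU.to_le inf_le_left) R

theorem isCentric_inf [Finite G] {p : ℕ} [Fact p.Prime]
    {F : FusionSystem S} {ι : S →* G} (hreal : F.IsRealizedBy ι)
    (hQ' : pCore p G ≤ ι.range)
    (hc : Subgroup.centralizer ((pCore p G : Subgroup G) : Set G) ≤ pCore p G)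
    {U : Subgroup Ω} {D : FusionSystem U} (hU : F.StronglyClosed U)
    (hN : D.IsNormal (U ⊓ preSub ι (pCore p G))) :
    D.IsCentric (U ⊓ preSub ι (pCore p G)) := by
  haveI hQn : (pCore p G).Normal :=
    @Subgroup.normal_of_characteristic _ _ _ (pCore_characteristic' p G)
  refine ⟨inf_le_left, ?_⟩
  rintro Q₁ ⟨φ, hφ, rfl⟩
  have hrange : φ.range = U ⊓ preSub ι (pCore p G) := by
    obtain ⟨ψ, -, hext, hmap⟩ := hN.2 _ φ hφ
    rw [map_subgroupOf_eq_iff] at hmap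
    ext y
    constructor
    · rintro ⟨x, rfl⟩
      rw [← hext x]
      exact hmap.1 _ x.2
    · intro hy
      obtain ⟨x, hx, rfl⟩ := hmap.2 y hy
      refine ⟨⟨x, hx⟩, ?_⟩
      rw [← hext]
      rfl
  rw [hrange]
  rintro x ⟨hxU, hxc⟩
  have hxS : x ∈ S := hU.1 hxU
  refine ⟨hxU, mem_preSub.mpr ⟨hxS, ?_⟩⟩
  haveI := normal_imSub_inf hreal (pCore p G) hQ' hU
  refine mem_pCore_of_stabilizes hc (imSub ι (U ⊓ preSub ι (pCore p G))) ?_ ?_ ?_
  · intro y hy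
    obtain ⟨t, ht, rfl⟩ := mem_imSub.mp hy
    exact (mem_preSub.mp ht.2).2
  · intro q hq
    obtain ⟨s, rfl⟩ := hQ' hq
    have hmem : ι (⟨x, hxS⟩ * s * ⟨x, hxS⟩⁻¹ * s⁻¹) ∈ pCore p G := by
      rw [map_mul, map_inv, map_mul, map_mul, map_inv]
      exact Subgroup.mul_mem _ (hQn.conj_mem _ hq _) (Subgroup.inv_mem _ hq)
    rw [← map_inv, ← map_mul, ← map_inv, ← map_mul, ← map_mul]
    refine mem_imSub.mpr ⟨_, ⟨?_, ?_⟩, rfl⟩
    · show x * (s : Ω) * x⁻¹ * (s : Ω)⁻¹ ∈ U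
      have h1 : (s : Ω) * x⁻¹ * (s : Ω)⁻¹ ∈ U :=
        hU.2 U le_rfl _ (F.conj_mem hU.1 s.2) ⟨x⁻¹, U.inv_mem hxU⟩
      have h2 := U.mul_mem hxU h1
      have e : x * ((s : Ω) * x⁻¹ * (s : Ω)⁻¹) = x * (s : Ω) * x⁻¹ * (s : Ω)⁻¹ := by group
      rwa [e] at h2
    · exact mem_preSub.mpr ⟨(⟨x, hxS⟩ * s * ⟨x, hxS⟩⁻¹ * s⁻¹ : S).2, hmem⟩
  · intro y hy
    obtain ⟨t, ht, rfl⟩ := mem_imSub.mp hy
    rw [← map_mul, ← map_mul]
    congr 1
    apply Subtype.ext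
    exact (Subgroup.mem_centralizer_iff.mp hxc (t : Ω) ht).symm

/-- A saturated subsystem of a constrained system over a strongly closed subgroup is constrained. -/
theorem constrained_of_subsystem [Finite S] {p : ℕ} [Fact p.Prime] (hS : IsPGroup p S)
    {F : FusionSystem S} (hF : F.IsConstrained p) {U : Subgroup Ω} {D : FusionSystem U}
    (hD : D.IsSaturated p) (hDF : D.IsSubsystemOf F) (hU : F.StronglyClosed U) :
    D.IsConstrained p := by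
  obtain ⟨G, _, ι, hmod⟩ := Helper84.Model.exists_model p hS F hF
  obtain ⟨hfin, hreal, ⟨T, hT⟩, hc⟩ := hmod
  haveI := hfin
  haveI hQn : (pCore p G).Normal :=
    @Subgroup.normal_of_characteristic _ _ _ (pCore_characteristic' p G)
  have hQ' := pCore_le_range T hT
  have hN := isNormal_inf hS hreal (pCore p G) hQ' hD hDF hU
  exact ⟨hD, _, hN, isCentric_inf hreal hQ' hc hU hN⟩

/-- Subnormal subsystems of constrained systems are constrained. -/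
theorem constrained_of_subnormal {T S : Subgroup Ω} {E : FusionSystem T} {F : FusionSystem S} {p : ℕ}
    (hE : E.IsSubnormalIn F p) :
    Finite S → Fact p.Prime → IsPGroup p S → F.IsConstrained p → E.IsConstrained p := by
  induction hE with
  | refl F p => intro _ _ _ hF; exact hF
  | step hED hDF ih =>
    intro hfin hp hS hF
    obtain ⟨⟨hDsat, hFsat, hDsub, hUsc, -, -⟩, -⟩ := hDF
    have hUS := hUsc.1
    have hDc := constrained_of_subsystem hS hF hDsat hDsub hUsc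
    exact ih (Finite.of_injective _ (Subgroup.inclusion_injective hUS)) hp (hS.to_le hUS) hDc

end fus

end Cfsg.Agent.Lib.Helper85.ConsNormal
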