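import Mathlib
import Cfsg.Prelude.Def_Transfer
import Cfsg.Agent.Lib.Helper2.FrattiniP
import Cfsg.Agent.Lib.Helper2.ESL
import Cfsg.Agent.Lib.Helper2.ESLExtra
import Cfsg.Agent.Lib.Helper2.ExtraCent
import Cfsg.Agent.Lib.Helper87.SC9
import Cfsg.Agent.Lib.Helper87.OmegaLemma
import Cfsg.Agent.Lib.Helper87.MetaCyc

/-!
# Generalized extraspecial groups with an elementary abelian centralizer

Let `G` be a finite group whose derived subgroup `W` is central of prime order `p` and contains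
all `p`-th powers, and let `x` be an element whose centralizer is abelian of exponent `p`.  For a
`t` not commuting with `x` the subgroup `E0 x t = ⟨x, t⟩ W` is extraspecial of order `p ^ 3` and
`G ≅ E0 x t × A` with `A` central elementary abelian.
-/

set_option autoImplicit false

namespace Cfsg.Agent.Lib.Helper85.GenExtra

open Cfsg Cfsg.Agent.Lib.Helper87
open scoped commutatorElement

/-! ### Complements in elementary abelian groups -/

theorem exists_compl {K : Type*} [CommGroup K] [Finite K] {p : ℕ} [Fact p.Prime]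
    (hexp : ∀ k : K, k ^ p = 1) (W : Subgroup K) :
    ∃ A : Subgroup K, A ⊓ W = ⊥ ∧ ∀ k : K, ∃ w ∈ W, ∃ a ∈ A, k = w * a := by
  have hp : p.Prime := Fact.out
  obtain ⟨A, hA⟩ := (Set.toFinite {A : Subgroup K | A ⊓ W = ⊥}).exists_maximal ⟨⊥, bot_inf_eq _⟩
  have hA1 : A ⊓ W = ⊥ := hA.1
  refine ⟨A, hA1, fun k => ?_⟩
  by_contra hk
  have hmem : A ⊔ Subgroup.zpowers k ∈ {A : Subgroup K | A ⊓ W = ⊥} := by
    show (A ⊔ Subgroup.zpowers k) ⊓ W = ⊥
    rw [eq_bot_iff]
    rintro y ⟨hy1, hy2⟩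
    rw [Subgroup.mem_bot]
    obtain ⟨a, ha, b, hb, rfl⟩ := Subgroup.mem_sup.1 hy1
    obtain ⟨i, rfl⟩ : ∃ i : ℕ, k ^ i = b :=
      (Submonoid.mem_powers_iff _ _).1 (mem_powers_iff_mem_zpowers.2 hb)
    by_cases hki : k ^ i = 1
    · rw [hki, mul_one] at hy2 ⊢
      have h1 : a ∈ A ⊓ W := ⟨ha, hy2⟩
      rw [hA1] at h1
      exact Subgroup.mem_bot.1 h1
    · exfalso
      obtain ⟨n, hn⟩ := exists_pow_eq_of_prime_order hp (hexp k) hki (Subgroup.mem_zpowers k)
      apply hk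
      refine ⟨(a * k ^ i) ^ n, Subgroup.pow_mem _ hy2 n, (a ^ n)⁻¹,
        Subgroup.inv_mem _ (Subgroup.pow_mem _ ha n), ?_⟩
      rw [mul_pow, hn, mul_comm (a ^ n) k, mul_inv_cancel_right]
  have hle : A ⊔ Subgroup.zpowers k ≤ A := hA.2 hmem le_sup_left
  have hkA : k ∈ A := hle (Subgroup.mem_sup_right (Subgroup.mem_zpowers k))
  exact hk ⟨1, Subgroup.one_mem _, k, hkA, (one_mul k).symm⟩

/-! ### The setting -/

variable {G : Type*} [Group G] [Finite G] {p : ℕ} [Fact p.Prime]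

omit [Finite G] in
theorem comm_mem (a b : G) : a * b * a⁻¹ * b⁻¹ ∈ commutator G := by
  rw [commutator_def]
  exact Subgroup.commutator_mem_commutator (Subgroup.mem_top a) (Subgroup.mem_top b)

omit [Finite G] in
theorem eq_of_comm_eq_one {a b : G} (h : a * b * a⁻¹ * b⁻¹ = 1) : a * b = b * a := by
  calc a * b = (a * b * a⁻¹ * b⁻¹) * (b * a) := by group
    _ = b * a := by rw [h, one_mul]

/-- The data: the derived subgroup is central of order `p` and contains the `p`-th powers; `t`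
does not commute with `x`; the centralizer of `x` is abelian of exponent `p`. -/
structure Dat (p : ℕ) (x t : G) : Prop where
  hW : Nat.card (commutator G) = p
  hcen : ∀ w ∈ commutator G, ∀ g : G, g * w = w * g
  hpow : ∀ g : G, g ^ p ∈ commutator G
  hxt : t * x ≠ x * t
  hab : ∀ a b : G, a * x = x * a → b * x = x * b → a * b = b * a
  hexp : ∀ a : G, a * x = x * a → a ^ p = 1

/-- The subgroup generated by `x`, `t` and the derived subgroup. -/
def E0 (x t : G) : Subgroup G :=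
  (Subgroup.closure {Abelianization.of t, Abelianization.of x}).comap Abelianization.of

omit [Finite G] in
theorem mem_E0 {x t g : G} :
    g ∈ E0 x t ↔ ∃ j i : ℤ, (t ^ j * x ^ i)⁻¹ * g ∈ commutator G := by
  unfold E0
  rw [Subgroup.mem_comap, Subgroup.mem_closure_pair]
  constructor
  · rintro ⟨j, i, h⟩
    refine ⟨j, i, ?_⟩
    rw [← Abelianization.ker_of, ← MonoidHom.eq_iff, map_mul, map_zpow, map_zpow]
    exact h.symm
  · rintro ⟨j, i, h⟩
    refine ⟨j, i, ?_⟩
    rw [← Abelianization.ker_of, ← MonoidHom.eq_iff, map_mul, map_zpow, map_zpow] at h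
    exact h.symm

omit [Finite G] in
theorem x_mem_E0 (x t : G) : x ∈ E0 x t := mem_E0.2 ⟨0, 1, by simp⟩

omit [Finite G] in
theorem t_mem_E0 (x t : G) : t ∈ E0 x t := mem_E0.2 ⟨1, 0, by simp⟩

omit [Finite G] in
theorem comm_le_E0 (x t : G) : commutator G ≤ E0 x t :=
  fun w hw => mem_E0.2 ⟨0, 0, by simpa using hw⟩

omit [Finite G] in
theorem nf_mem_E0 (x t : G) (j i : ℕ) {w : G} (hw : w ∈ commutator G) :
    t ^ j * x ^ i * w ∈ E0 x t := by
  refine mem_E0.2 ⟨j, i, ?_⟩
  rw [zpow_natCast, zpow_natCast, inv_mul_cancel_left]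
  exact hw

namespace Dat

variable {x t : G}

omit [Finite G] [Fact p.Prime] in
theorem hcenter (D : Dat p x t) (a b : G) : a * b * a⁻¹ * b⁻¹ ∈ Subgroup.center G :=
  Subgroup.mem_center_iff.2 (fun g => D.hcen _ (comm_mem a b) g)

omit [Finite G] [Fact p.Prime] in
theorem c_ne (D : Dat p x t) : t * x * t⁻¹ * x⁻¹ ≠ 1 := fun h => D.hxt (eq_of_comm_eq_one h)

omit [Finite G] [Fact p.Prime] in
theorem c_ne' (D : Dat p x t) : x * t * x⁻¹ * t⁻¹ ≠ 1 :=
  fun h => D.hxt (eq_of_comm_eq_one h).symm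

theorem w_pow (D : Dat p x t) {w : G} (hw : w ∈ commutator G) : w ^ p = 1 := by
  have h := pow_card_eq_one' (G := commutator G) (x := ⟨w, hw⟩)
  rw [D.hW] at h
  simpa only [Subgroup.coe_pow, Subgroup.coe_one] using congrArg Subtype.val h

omit [Finite G] [Fact p.Prime] in
theorem x_pow (D : Dat p x t) : x ^ p = 1 := D.hexp x rfl

theorem exists_decomp (D : Dat p x t) (g : G) :
    ∃ j i : ℕ, ∃ k : G, k * x = x * k ∧ k * t = t * k ∧ g = t ^ j * x ^ i * k := by
  obtain ⟨j, hj⟩ := Cfsg.Agent.Lib.Helper2.exists_pow_eq_of_card_prime (commutator G) D.hW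
    (comm_mem t x) D.c_ne (comm_mem g x)
  obtain ⟨i, hi⟩ := Cfsg.Agent.Lib.Helper2.exists_pow_eq_of_card_prime (commutator G) D.hW
    (comm_mem x t) D.c_ne' (comm_mem g t)
  have hxx : x * x * x⁻¹ * x⁻¹ = 1 := by group
  have htt : t * t * t⁻¹ * t⁻¹ = 1 := by group
  have h1 : commHom D.hcenter x ((t ^ j * x ^ i)⁻¹ * g) = 1 := by
    rw [map_mul, map_inv, map_mul, map_pow, map_pow]
    simp only [commHom_apply]
    rw [hxx, one_pow, mul_one, hj, inv_mul_cancel]
  have h2 : commHom D.hcenter t ((t ^ j * x ^ i)⁻¹ * g) = 1 := by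
    rw [map_mul, map_inv, map_mul, map_pow, map_pow]
    simp only [commHom_apply]
    rw [htt, one_pow, one_mul, hi, inv_mul_cancel]
  exact ⟨j, i, (t ^ j * x ^ i)⁻¹ * g, eq_of_comm_eq_one h1, eq_of_comm_eq_one h2, by group⟩

theorem central_of_comm (D : Dat p x t) {k : G} (hkx : k * x = x * k) (hkt : k * t = t * k)
    (g : G) : g * k = k * g := by
  obtain ⟨j, i, k', hk'x, -, rfl⟩ := D.exists_decomp g
  have h1 : Commute k t := hkt
  have h2 : Commute k x := hkx
  have h3 : Commute k k' := D.hab k k' hkx hk'x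
  exact (((h1.pow_right j).mul_right (h2.pow_right i)).mul_right h3).eq.symm

omit [Finite G] [Fact p.Prime] in
theorem center_pow (D : Dat p x t) {k : G} (hk : k ∈ Subgroup.center G) : k ^ p = 1 :=
  D.hexp k (Subgroup.mem_center_iff.1 hk x).symm

theorem mem_comm_of_mem_E0 (D : Dat p x t) {g : G} (hg : g ∈ E0 x t) (hgx : g * x = x * g)
    (hgt : g * t = t * g) : g ∈ commutator G := by
  obtain ⟨j, i, hw⟩ := mem_E0.1 hg
  have hg' : g = t ^ j * x ^ i * ((t ^ j * x ^ i)⁻¹ * g) := by group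
  generalize (t ^ j * x ^ i)⁻¹ * g = w at hw hg'
  have hwx : w * x * w⁻¹ * x⁻¹ = 1 := by
    rw [← D.hcen w hw x]
    group
  have hwt : w * t * w⁻¹ * t⁻¹ = 1 := by
    rw [← D.hcen w hw t]
    group
  have hxx : x * x * x⁻¹ * x⁻¹ = 1 := by group
  have htt : t * t * t⁻¹ * t⁻¹ = 1 := by group
  have h1 : (t * x * t⁻¹ * x⁻¹) ^ j = 1 := by
    have h := congrArg (commHom D.hcenter x) hg'
    rw [map_mul, map_mul, map_zpow, map_zpow] at h
    simp only [commHom_apply] at h
    rw [hxx, one_zpow, mul_one, hwx, mul_one] at h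
    rw [← h, hgx]
    group
  have h2 : (x * t * x⁻¹ * t⁻¹) ^ i = 1 := by
    have h := congrArg (commHom D.hcenter t) hg'
    rw [map_mul, map_mul, map_zpow, map_zpow] at h
    simp only [commHom_apply] at h
    rw [htt, one_zpow, one_mul, hwt, mul_one] at h
    rw [← h, hgt]
    group
  have ho1 : orderOf (t * x * t⁻¹ * x⁻¹) = p :=
    orderOf_eq_prime (D.w_pow (comm_mem t x)) D.c_ne
  have ho2 : orderOf (x * t * x⁻¹ * t⁻¹) = p :=
    orderOf_eq_prime (D.w_pow (comm_mem x t)) D.c_ne'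
  have hd1 : (p : ℤ) ∣ j := by
    have h := orderOf_dvd_iff_zpow_eq_one.2 h1
    rwa [ho1] at h
  have hd2 : (p : ℤ) ∣ i := by
    have h := orderOf_dvd_iff_zpow_eq_one.2 h2
    rwa [ho2] at h
  obtain ⟨j', rfl⟩ := hd1
  obtain ⟨i', rfl⟩ := hd2
  rw [hg', zpow_mul, zpow_mul, zpow_natCast, zpow_natCast, D.x_pow, one_zpow, mul_one]
  exact Subgroup.mul_mem _ (Subgroup.zpow_mem _ (D.hpow t) j') hw

theorem mem_center_E0_iff (D : Dat p x t) (e : ↥(E0 x t)) :
    e ∈ Subgroup.center ↥(E0 x t) ↔ (e : G) ∈ commutator G := by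
  constructor
  · intro he
    have h1 := Subgroup.mem_center_iff.1 he ⟨x, x_mem_E0 x t⟩
    have h2 := Subgroup.mem_center_iff.1 he ⟨t, t_mem_E0 x t⟩
    have h1' : (e : G) * x = x * e := (congrArg Subtype.val h1).symm
    have h2' : (e : G) * t = t * e := (congrArg Subtype.val h2).symm
    exact D.mem_comm_of_mem_E0 e.2 h1' h2'
  · intro he
    rw [Subgroup.mem_center_iff]
    intro g
    exact Subtype.ext (D.hcen _ he g)

theorem card_center_E0 (D : Dat p x t) : Nat.card (Subgroup.center ↥(E0 x t)) = p := by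
  have h : Subgroup.center ↥(E0 x t) = (commutator G).subgroupOf (E0 x t) := by
    ext e
    rw [Subgroup.mem_subgroupOf]
    exact D.mem_center_E0_iff e
  rw [h, Nat.card_congr (Subgroup.subgroupOfEquivOfLe (comm_le_E0 x t)).toEquiv, D.hW]

theorem comm_center_E0 (D : Dat p x t) (a b : ↥(E0 x t)) :
    ⁅a, b⁆ ∈ Subgroup.center ↥(E0 x t) := by
  rw [D.mem_center_E0_iff]
  exact comm_mem (a : G) (b : G)

omit [Finite G] [Fact p.Prime] in
theorem nab_E0 (D : Dat p x t) : ∃ a b : ↥(E0 x t), ⁅a, b⁆ ≠ 1 :=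
  ⟨⟨t, t_mem_E0 x t⟩, ⟨x, x_mem_E0 x t⟩, fun h => D.c_ne (congrArg Subtype.val h)⟩

theorem extraspecial_E0 (D : Dat p x t) : Cfsg.IsExtraspecial p ↥(E0 x t) :=
  Cfsg.Agent.Lib.Helper2.ESL.isExtraspecial_of D.card_center_E0 D.comm_center_E0 D.nab_E0

theorem card_E0 (D : Dat p x t) : Nat.card ↥(E0 x t) = p ^ 3 := by
  have h1 := Cfsg.Agent.Lib.Helper2.ESL.card_closure_pair D.card_center_E0 D.comm_center_E0
    (⟨t, t_mem_E0 x t⟩ : ↥(E0 x t)) ⟨x, x_mem_E0 x t⟩ (fun h => D.c_ne (congrArg Subtype.val h))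
  have h2 : Subgroup.closure ({(⟨t, t_mem_E0 x t⟩ : ↥(E0 x t)), ⟨x, x_mem_E0 x t⟩} :
      Set ↥(E0 x t)) = ⊤ := by
    rw [eq_top_iff]
    intro e _
    obtain ⟨j, i, hw⟩ := mem_E0.1 e.2
    obtain ⟨k, hk⟩ := Cfsg.Agent.Lib.Helper2.exists_pow_eq_of_card_prime (commutator G) D.hW
      (comm_mem t x) D.c_ne hw
    have he : e = (⟨t, t_mem_E0 x t⟩ : ↥(E0 x t)) ^ j * (⟨x, x_mem_E0 x t⟩ : ↥(E0 x t)) ^ i *
        ⁅(⟨t, t_mem_E0 x t⟩ : ↥(E0 x t)), (⟨x, x_mem_E0 x t⟩ : ↥(E0 x t))⁆ ^ k := by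
      apply Subtype.ext
      show (e : G) = t ^ j * x ^ i * (t * x * t⁻¹ * x⁻¹) ^ k
      rw [hk]
      group
    rw [he]
    have ht' : (⟨t, t_mem_E0 x t⟩ : ↥(E0 x t)) ∈ Subgroup.closure
        ({(⟨t, t_mem_E0 x t⟩ : ↥(E0 x t)), ⟨x, x_mem_E0 x t⟩} : Set ↥(E0 x t)) :=
      Subgroup.subset_closure (by simp)
    have hx' : (⟨x, x_mem_E0 x t⟩ : ↥(E0 x t)) ∈ Subgroup.closure
        ({(⟨t, t_mem_E0 x t⟩ : ↥(E0 x t)), ⟨x, x_mem_E0 x t⟩} : Set ↥(E0 x t)) :=
      Subgroup.subset_closure (by simp)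
    exact Subgroup.mul_mem _ (Subgroup.mul_mem _ (Subgroup.zpow_mem _ ht' j)
      (Subgroup.zpow_mem _ hx' i))
      (Subgroup.pow_mem _ (Cfsg.Agent.Lib.Helper2.ESL.commutator_mem_closure _ _) k)
  rw [h2, Subgroup.card_top] at h1
  exact h1

theorem exp_E0 (D : Dat p x t) (hp2 : p ≠ 2) (ht : t ^ p = 1) :
    Monoid.exponent ↥(E0 x t) = p := by
  have hp : p.Prime := Fact.out
  have hpow : ∀ e : ↥(E0 x t), e ^ p = 1 := by
    intro e
    obtain ⟨j, i, hw⟩ := mem_E0.1 e.2
    have he : (e : G) = t ^ j * x ^ i * ((t ^ j * x ^ i)⁻¹ * e) := by group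
    generalize (t ^ j * x ^ i)⁻¹ * (e : G) = w at hw he
    apply Subtype.ext
    rw [Subgroup.coe_pow, Subgroup.coe_one, he]
    have hcw : Commute (t ^ j * x ^ i) w := D.hcen w hw _
    rw [hcw.mul_pow, D.w_pow hw, mul_one]
    have hq : (x ^ i)⁻¹ * (t ^ j)⁻¹ * x ^ i * t ^ j ∈ commutator G := by
      have h := comm_mem (x ^ i)⁻¹ (t ^ j)⁻¹
      rwa [inv_inv, inv_inv] at h
    rw [mul_pow_prime_class_two hp hp2 (t ^ j) (x ^ i) _
      (by group : x ^ i * t ^ j = t ^ j * x ^ i * ((x ^ i)⁻¹ * (t ^ j)⁻¹ * x ^ i * t ^ j))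
      (D.hcen _ hq _).symm (D.hcen _ hq _).symm (D.w_pow hq)]
    have e1 : (t ^ j) ^ p = 1 := by
      rw [← zpow_natCast, ← zpow_mul, mul_comm, zpow_mul, zpow_natCast, ht, one_zpow]
    have e2 : (x ^ i) ^ p = 1 := by
      rw [← zpow_natCast, ← zpow_mul, mul_comm, zpow_mul, zpow_natCast, D.x_pow, one_zpow]
    rw [e1, e2, one_mul]
  have hdvd : Monoid.exponent ↥(E0 x t) ∣ p := Monoid.exponent_dvd_of_forall_pow_eq_one hpow
  rcases (Nat.dvd_prime hp).1 hdvd with h | h
  · exfalso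
    rw [Monoid.exp_eq_one_iff] at h
    apply D.c_ne
    have h1 := h.elim (⟨t * x * t⁻¹ * x⁻¹, comm_le_E0 x t (comm_mem t x)⟩ : ↥(E0 x t)) 1
    exact congrArg Subtype.val h1
  · exact h

theorem exists_iso (D : Dat p x t) :
    ∃ A : Subgroup (Subgroup.center G), (∀ a : A, a ^ p = 1) ∧
      Nonempty (G ≃* ↥(E0 x t) × ↥A) := by
  have hKexp : ∀ k : Subgroup.center G, k ^ p = 1 := fun k => Subtype.ext (D.center_pow k.2)
  letI instK : CommGroup ↥(Subgroup.center G) :=
    { (inferInstance : Group ↥(Subgroup.center G)) with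
      mul_comm := fun a b => Subtype.ext (Subgroup.mem_center_iff.1 b.2 (a : G)) }
  obtain ⟨A, hA1, hA2⟩ := exists_compl (K := ↥(Subgroup.center G)) hKexp
    ((commutator G).subgroupOf (Subgroup.center G))
  refine ⟨A, fun a => Subtype.ext (hKexp a), ?_⟩
  let μ : ↥(E0 x t) × ↥A →* G :=
    { toFun := fun q => (q.1 : G) * ((q.2 : Subgroup.center G) : G)
      map_one' := by simp
      map_mul' := by
        intro q r
        have h : (r.1 : G) * ((q.2 : Subgroup.center G) : G)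
            = ((q.2 : Subgroup.center G) : G) * (r.1 : G) :=
          Subgroup.mem_center_iff.1 (q.2 : Subgroup.center G).2 (r.1 : G)
        show ((q.1 : G) * (r.1 : G)) * (((q.2 : Subgroup.center G) : G)
            * ((r.2 : Subgroup.center G) : G))
          = (q.1 : G) * ((q.2 : Subgroup.center G) : G)
            * ((r.1 : G) * ((r.2 : Subgroup.center G) : G))
        calc ((q.1 : G) * (r.1 : G)) * (((q.2 : Subgroup.center G) : G)
              * ((r.2 : Subgroup.center G) : G))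
            = (q.1 : G) * ((r.1 : G) * ((q.2 : Subgroup.center G) : G))
              * ((r.2 : Subgroup.center G) : G) := by group
          _ = (q.1 : G) * (((q.2 : Subgroup.center G) : G) * (r.1 : G))
              * ((r.2 : Subgroup.center G) : G) := by rw [h]
          _ = (q.1 : G) * ((q.2 : Subgroup.center G) : G)
              * ((r.1 : G) * ((r.2 : Subgroup.center G) : G)) := by group }
  have hμ : ∀ q : ↥(E0 x t) × ↥A, μ q = (q.1 : G) * ((q.2 : Subgroup.center G) : G) :=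
    fun _ => rfl
  have hinj : Function.Injective μ := by
    rw [injective_iff_map_eq_one]
    rintro ⟨e, a⟩ h
    have h' : (e : G) * ((a : Subgroup.center G) : G) = 1 := h
    have he : (e : G) = (((a : Subgroup.center G) : G))⁻¹ := eq_inv_of_mul_eq_one_left h'
    have hec : (e : G) ∈ Subgroup.center G := by
      rw [he]
      exact Subgroup.inv_mem _ (a : Subgroup.center G).2
    have heW : (e : G) ∈ commutator G :=
      D.mem_comm_of_mem_E0 e.2 (Subgroup.mem_center_iff.1 hec x).symm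
        (Subgroup.mem_center_iff.1 hec t).symm
    have haW : ((a : Subgroup.center G) : G) ∈ commutator G := by
      have h3 : ((a : Subgroup.center G) : G) = (e : G)⁻¹ := by rw [he, inv_inv]
      rw [h3]
      exact Subgroup.inv_mem _ heW
    have ha1 : (a : Subgroup.center G) ∈ A ⊓ (commutator G).subgroupOf (Subgroup.center G) :=
      ⟨a.2, Subgroup.mem_subgroupOf.2 haW⟩
    rw [hA1, Subgroup.mem_bot] at ha1
    have ha1' : a = 1 := Subtype.ext ha1
    have he1 : e = 1 := by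
      apply Subtype.ext
      rw [he, ha1]
      simp
    rw [he1, ha1']
    rfl
  have hsurj : Function.Surjective μ := by
    intro g
    obtain ⟨j, i, k, hkx, hkt, rfl⟩ := D.exists_decomp g
    have hkc : k ∈ Subgroup.center G := Subgroup.mem_center_iff.2 (D.central_of_comm hkx hkt)
    obtain ⟨w, hw, a, ha, hka⟩ := hA2 ⟨k, hkc⟩
    refine ⟨(⟨t ^ j * x ^ i * (w : G), nf_mem_E0 x t j i (Subgroup.mem_subgroupOf.1 hw)⟩,
      ⟨a, ha⟩), ?_⟩
    rw [hμ]
    show t ^ j * x ^ i * (w : G) * (a : G) = t ^ j * x ^ i * k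
    have h3 : k = (w : G) * (a : G) := congrArg Subtype.val hka
    rw [h3, mul_assoc]
  exact ⟨(MulEquiv.ofBijective μ ⟨hinj, hsurj⟩).symm⟩

end Dat

/-! ### The two conclusions -/

theorem dihedral_E0 {x t : G} (D : Dat 2 x t) : Nonempty (↥(E0 x t) ≃* DihedralGroup 4) := by
  have hcard : Nat.card ↥(E0 x t) = 8 := by
    rw [D.card_E0]
    norm_num
  have hc2 : (t * x * t⁻¹ * x⁻¹) ^ 2 = 1 := D.w_pow (comm_mem t x)
  have hall : ∀ w : G, w ∈ commutator G → w = 1 ∨ w = t * x * t⁻¹ * x⁻¹ := by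
    intro w hw
    obtain ⟨k, hk⟩ := Cfsg.Agent.Lib.Helper2.exists_pow_eq_of_card_prime (commutator G) D.hW
      (comm_mem t x) D.c_ne hw
    rcases Nat.even_or_odd k with ⟨m, rfl⟩ | ⟨m, rfl⟩
    · left
      rw [← hk, ← two_mul, pow_mul, hc2, one_pow]
    · right
      rw [← hk, pow_succ, pow_mul, hc2, one_pow, one_mul]
  refine dihedral_of_facts hcard
    (⟨t * x * t⁻¹ * x⁻¹, comm_le_E0 x t (comm_mem t x)⟩ : ↥(E0 x t)) (Subtype.ext hc2) ?_ ?_
    ⟨x, x_mem_E0 x t⟩ ?_ ⟨t, t_mem_E0 x t⟩ ?_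
  · intro a b
    rcases hall _ (comm_mem (a : G) (b : G)) with h | h
    · have h1 : a * b * a⁻¹ * b⁻¹ = 1 := Subtype.ext h
      rw [h1]
      exact Subgroup.one_mem _
    · have h1 : a * b * a⁻¹ * b⁻¹
          = (⟨t * x * t⁻¹ * x⁻¹, comm_le_E0 x t (comm_mem t x)⟩ : ↥(E0 x t)) := Subtype.ext h
      rw [h1]
      exact Subgroup.mem_zpowers _
  · intro a
    rcases hall _ (D.hpow (a : G)) with h | h
    · left
      exact Subtype.ext h
    · right
      exact Subtype.ext h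
  · apply Subtype.ext
    show x * x = 1
    rw [← pow_two]
    exact D.x_pow
  · intro h
    exact D.hxt (congrArg Subtype.val h)

/-- `p = 2`: the group is `D₈ × A` with `A` elementary abelian. -/
theorem two_case {x t : G} (D : Dat 2 x t) :
    ∃ (A : Type) (_ : CommGroup A), (∀ a : A, a ^ 2 = 1) ∧
      Nonempty (G ≃* DihedralGroup 4 × A) := by
  obtain ⟨A, hA, ⟨e⟩⟩ := D.exists_iso
  obtain ⟨d⟩ := dihedral_E0 D
  have hsm : Small.{0} ↥A := Countable.toSmall _
  letI instA : CommGroup ↥A :=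
    { (inferInstance : Group ↥A) with
      mul_comm := fun a b => Subtype.ext (Subtype.ext
        (Subgroup.mem_center_iff.1 (b : Subgroup.center G).2 ((a : Subgroup.center G) : G))) }
  refine ⟨Shrink.{0} ↥A, inferInstance, ?_,
    ⟨e.trans (MulEquiv.prodCongr d (Shrink.mulEquiv (α := ↥A)).symm)⟩⟩
  intro a
  apply (Shrink.mulEquiv (α := ↥A)).injective
  rw [map_pow, hA, map_one]

/-- `p` odd with an element of order `p` outside the centralizer of `x`: the group is `E × A`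
with `E` extraspecial of order `p ^ 3` and exponent `p` and `A` elementary abelian. -/
theorem odd_case {x t : G} (D : Dat p x t) (hp2 : p ≠ 2) (ht : t ^ p = 1) :
    ∃ (E : Type) (_ : Group E) (A : Type) (_ : CommGroup A), Cfsg.IsExtraspecial p E ∧
      Nat.card E = p ^ 3 ∧ Monoid.exponent E = p ∧ (∀ a : A, a ^ p = 1) ∧
      Nonempty (G ≃* E × A) := by
  obtain ⟨A, hA, ⟨e⟩⟩ := D.exists_iso
  have hsm : Small.{0} ↥A := Countable.toSmall _
  have hsm' : Small.{0} ↥(E0 x t) := Countable.toSmall _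
  letI instA : CommGroup ↥A :=
    { (inferInstance : Group ↥A) with
      mul_comm := fun a b => Subtype.ext (Subtype.ext
        (Subgroup.mem_center_iff.1 (b : Subgroup.center G).2 ((a : Subgroup.center G) : G))) }
  have hfin : Finite (Shrink.{0} ↥(E0 x t)) :=
    Finite.of_equiv _ (Shrink.mulEquiv (α := ↥(E0 x t))).symm.toEquiv
  refine ⟨Shrink.{0} ↥(E0 x t), inferInstance, Shrink.{0} ↥A, inferInstance, ?_, ?_, ?_, ?_,
    ⟨e.trans (MulEquiv.prodCongr (Shrink.mulEquiv (α := ↥(E0 x t))).symm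
      (Shrink.mulEquiv (α := ↥A)).symm)⟩⟩
  · apply Cfsg.Agent.Lib.Helper2.ESL.isExtraspecial_of
    · rw [Nat.card_congr (Subgroup.centerCongr (Shrink.mulEquiv (α := ↥(E0 x t)))).toEquiv]
      exact D.card_center_E0
    · intro a b
      rw [Subgroup.mem_center_iff]
      intro g
      apply (Shrink.mulEquiv (α := ↥(E0 x t))).injective
      rw [map_mul, map_mul, map_commutatorElement]
      exact Subgroup.mem_center_iff.1 (D.comm_center_E0 _ _) _
    · obtain ⟨a, b, hab⟩ := D.nab_E0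
      refine ⟨(Shrink.mulEquiv (α := ↥(E0 x t))).symm a,
        (Shrink.mulEquiv (α := ↥(E0 x t))).symm b, fun h => hab ?_⟩
      have h1 := congrArg (Shrink.mulEquiv (α := ↥(E0 x t))) h
      rwa [map_commutatorElement, MulEquiv.apply_symm_apply, MulEquiv.apply_symm_apply,
        map_one] at h1
  · rw [Nat.card_congr (Shrink.mulEquiv (α := ↥(E0 x t))).toEquiv]
    exact D.card_E0
  · rw [Monoid.exponent_eq_of_mulEquiv (Shrink.mulEquiv (α := ↥(E0 x t)))]
    exact D.exp_E0 hp2 ht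
  · intro a
    apply (Shrink.mulEquiv (α := ↥A)).injective
    rw [map_pow, hA, map_one]

end Cfsg.Agent.Lib.Helper85.GenExtra
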