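import Mathlib
import Cfsg.Prelude.Def_FusionSystem
import Cfsg.Agent.Lib.Helper85.GenExtra
import Cfsg.Agent.Lib.Helper53.PGroups
import Cfsg.Agent.Lib.Helper64.BaerSuzuki
import Cfsg.Agent.Lib.Helper84.FusionSat
import Cfsg.Agent.Lib.Helper86.Saturated
import Cfsg.Agent.Lib.Helper87.FusionBasic
import Cfsg.Agent.Lib.Helper87.FusionStrongly
import Cfsg.Agent.Lib.Helper87.FusionNormal
import Cfsg.Agent.Lib.Helper87.FusionMore
import Cfsg.Agent.Lib.Helper87.FusionMeta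
import Cfsg.Agent.Lib.Helper87.FusionTate
import Cfsg.Agent.Lib.Helper87.SC1

/-!
# Strongly closed generalized extraspecial subgroups

Let `P` be strongly closed in the saturated fusion system `F`, with `Z = [P, P] = Φ(P)` of order
`p`.  If `Z` is not weakly closed in `F`, then `P ≅ E × A` with `A` elementary abelian and `E`
dihedral of order `8` (`p = 2`) or extraspecial of order `p ^ 3` and exponent `p` (`p` odd).
-/

set_option autoImplicit false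

namespace Cfsg.Agent.Lib.Helper85GE

open Cfsg Cfsg.FusionSystem Cfsg.Agent.Lib.Helper87 Cfsg.Agent.Lib.Helper85.GenExtra

/-- In a finite `p`-group a normal subgroup of order `p` is central. -/
theorem normal_card_prime_le_center {R : Type*} [Group R] [Finite R] {p : ℕ} [Fact p.Prime]
    (hR : IsPGroup p R) (N : Subgroup R) [N.Normal] (hN : Nat.card N = p) :
    N ≤ Subgroup.center R := by
  have hp := (Fact.out : p.Prime)
  have hne : N ≠ ⊥ := by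
    intro h
    rw [h, Subgroup.card_bot] at hN
    exact hp.one_lt.ne hN
  obtain ⟨z, hzN, hz1, hzc⟩ := Cfsg.Agent.Lib.Helper53.exists_mem_center_of_normal_of_ne_bot hR N hne
  have h1 : Subgroup.zpowers z ≤ N := by rw [Subgroup.zpowers_le]; exact hzN
  have h2 : Nat.card (Subgroup.zpowers z) = p := by
    rw [Nat.card_zpowers]
    have h3 : orderOf z ∣ p := by
      rw [← hN]
      have h4 : orderOf (⟨z, hzN⟩ : N) ∣ Nat.card N := orderOf_dvd_natCard _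
      rwa [Subgroup.orderOf_mk] at h4
    rcases (Nat.dvd_prime hp).mp h3 with h5 | h5
    · exact absurd (orderOf_eq_one_iff.mp h5) hz1
    · exact h5
  have h3 : Subgroup.zpowers z = N := Subgroup.eq_of_le_of_card_ge h1 (by rw [h2, hN])
  rw [← h3, Subgroup.zpowers_le]
  exact hzc

variable {Ω : Type*} [Group Ω] {S : Subgroup Ω}

/-- The context: `P` strongly closed in the saturated system `F`, `Z` the derived subgroup of
`P`, of order `p`, containing the `p`-th powers of `P` and central in `S`. -/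
structure Ctx (p : ℕ) (S : Subgroup Ω) (F : FusionSystem S) (P Z : Subgroup Ω) : Prop where
  hS : IsPGroup p S
  hF : F.IsSaturated p
  hP : F.StronglyClosed P
  hZP : Z ≤ P
  hZcard : Nat.card Z = p
  hW : Nat.card (commutator ↥P) = p
  hpowW : ∀ g : ↥P, g ^ p ∈ commutator ↥P
  hWZ : ∀ g : ↥P, g ∈ commutator ↥P → (g : Ω) ∈ Z
  hcomm : ∀ a ∈ P, ∀ b ∈ P, a * b * a⁻¹ * b⁻¹ ∈ Z
  hpow : ∀ a ∈ P, a ^ p ∈ Z
  hZcen : ∀ w ∈ Z, ∀ s ∈ S, s * w = w * s

theorem ctx_of [Finite S] (p : ℕ) [Fact p.Prime] (hS : IsPGroup p S) (F : FusionSystem S)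
    (hF : F.IsSaturated p) (P : Subgroup Ω) (hP : F.StronglyClosed P)
    (hge : frattini ↥P = commutator ↥P ∧ Nat.card ↥(commutator ↥P) = p) :
    Ctx p S F P ⁅P, P⁆ := by
  have hp : p.Prime := Fact.out
  haveI : Finite ↥P := Cfsg.Agent.Lib.Helper87.finite_of_le hP.1
  have hPp : IsPGroup p ↥P := hS.to_le hP.1
  have hmap : (commutator ↥P).map P.subtype = ⁅P, P⁆ := Subgroup.map_subtype_commutator P
  have hZP : ⁅P, P⁆ ≤ P := by
    rw [← hmap]
    exact Subgroup.map_subtype_le _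
  have hZS : ⁅P, P⁆ ≤ S := hZP.trans hP.1
  have hZcard : Nat.card ↥⁅P, P⁆ = p := by
    rw [← hmap, Subgroup.card_map_of_injective P.subtype_injective]
    exact hge.2
  have hWZ : ∀ g : ↥P, g ∈ commutator ↥P → (g : Ω) ∈ ⁅P, P⁆ := by
    intro g hg
    rw [← hmap]
    exact Subgroup.mem_map_of_mem P.subtype hg
  have hpowW : ∀ g : ↥P, g ^ p ∈ commutator ↥P := by
    intro g
    rw [← hge.1]
    exact Cfsg.Agent.Lib.Helper2.pow_mem_frattini hPp g
  have hconj : ∀ s ∈ S, ∀ w ∈ ⁅P, P⁆, s * w * s⁻¹ ∈ ⁅P, P⁆ := by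
    intro s hs
    have hle : ⁅P, P⁆ ≤ (⁅P, P⁆).comap (MulAut.conj s).toMonoidHom := by
      rw [Subgroup.commutator_le]
      intro a ha b hb
      rw [Subgroup.mem_comap, map_commutatorElement]
      exact Subgroup.commutator_mem_commutator (stronglyClosed_conj_mem F hP hs ha)
        (stronglyClosed_conj_mem F hP hs hb)
    intro w hw
    exact hle hw
  haveI hn : ((⁅P, P⁆ : Subgroup Ω).subgroupOf S).Normal := by
    refine ⟨fun n hn g => ?_⟩
    rw [Subgroup.mem_subgroupOf] at hn ⊢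
    exact hconj g g.2 n hn
  have hcardN : Nat.card ((⁅P, P⁆ : Subgroup Ω).subgroupOf S) = p := by
    rw [Nat.card_congr (Subgroup.subgroupOfEquivOfLe hZS).toEquiv]
    exact hZcard
  have hcenS := normal_card_prime_le_center hS _ hcardN
  refine ⟨hS, hF, hP, hZP, hZcard, hge.2, hpowW, hWZ, ?_, ?_, ?_⟩
  · intro a ha b hb
    exact Subgroup.commutator_mem_commutator ha hb
  · intro a ha
    exact hWZ _ (hpowW ⟨a, ha⟩)
  · intro w hw s hs
    have h1 : (⟨w, hZS hw⟩ : ↥S) ∈ (⁅P, P⁆ : Subgroup Ω).subgroupOf S :=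
      Subgroup.mem_subgroupOf.2 hw
    have h2 := Subgroup.mem_center_iff.1 (hcenS h1) ⟨s, hs⟩
    exact congrArg Subtype.val h2

/-- If `Z` is not weakly closed, some `x ∈ P ∖ Z` is the image of a generator `z` of `Z` under a
map of the system and has an elementary abelian centralizer in `P`. -/
theorem exists_bad_elt [Finite S] {p : ℕ} [Fact p.Prime] {F : FusionSystem S} {P Z : Subgroup Ω}
    (C : Ctx p S F P Z) {φ : Z →* Ω} (hφ : φ ∈ F.Hom Z) (hne : φ.range ≠ Z) :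
    ∃ z x : Ω, z ≠ 1 ∧ x ∈ P ∧ (∃ hz : z ∈ Z, φ ⟨z, hz⟩ = x) ∧
      (∀ a ∈ P, ∀ b ∈ P, a * x = x * a → b * x = x * b → a * b = b * a) ∧
      (∀ a ∈ P, a * x = x * a → a ^ p = 1) := by
  have hp : p.Prime := Fact.out
  have hPS : P ≤ S := C.hP.1
  have hZS : Z ≤ S := C.hZP.trans hPS
  haveI : Finite ↥Z := Cfsg.Agent.Lib.Helper87.finite_of_le hZS
  obtain ⟨z, hzZ, hz1⟩ : ∃ z ∈ Z, z ≠ 1 := by
    by_contra h
    push_neg at h
    have h0 : Z = ⊥ := by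
      rw [eq_bot_iff]
      intro y hy
      exact Subgroup.mem_bot.2 (h y hy)
    have h1 := C.hZcard
    rw [h0, Subgroup.card_bot] at h1
    exact hp.one_lt.ne h1
  have hgen : ∀ w ∈ Z, ∃ k : ℕ, z ^ k = w := fun w hw =>
    Cfsg.Agent.Lib.Helper2.exists_pow_eq_of_card_prime Z C.hZcard hzZ hz1 hw
  obtain ⟨x, hx⟩ : ∃ x, φ ⟨z, hzZ⟩ = x := ⟨_, rfl⟩
  have hxP : x ∈ P := by
    rw [← hx]
    exact C.hP.2 Z C.hZP φ hφ ⟨z, hzZ⟩
  have hxS : x ∈ S := hPS hxP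
  have hinj := F.injective_of_mem hφ
  have hφpow : ∀ (k : ℕ) (hk : z ^ k ∈ Z), φ ⟨z ^ k, hk⟩ = x ^ k := by
    intro k hk
    have h1 : (⟨z ^ k, hk⟩ : Z) = ⟨z, hzZ⟩ ^ k := rfl
    rw [h1, map_pow, hx]
  have hxZ : x ∉ Z := by
    intro hxZ
    apply hne
    have hle : φ.range ≤ Z := by
      rintro _ ⟨⟨w, hw⟩, rfl⟩
      obtain ⟨k, rfl⟩ := hgen w hw
      rw [hφpow k hw]
      exact Subgroup.pow_mem _ hxZ k
    have hcard : Nat.card φ.range = Nat.card Z :=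
      (Nat.card_congr (Equiv.ofInjective φ hinj)).symm
    exact Subgroup.eq_of_le_of_card_ge hle hcard.ge
  have hZn : S ≤ Subgroup.normalizer (Z : Set Ω) := by
    intro s hs
    rw [Subgroup.mem_normalizer_iff]
    intro w
    constructor
    · intro hw
      rw [C.hZcen w hw s hs, mul_inv_cancel_right]
      exact hw
    · intro hw
      have h1 := C.hZcen _ hw s hs
      have h3 : s * (s * w * s⁻¹) = s * w := by
        rw [h1]
        group
      have h4 := mul_left_cancel h3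
      rw [← h4]
      exact hw
  have hfn : F.IsFullyNormalized Z := isFullyNormalized_of_normal F hZS hZn
  have hrec := (Cfsg.Agent.Lib.Helper86.fullyNormalized_imp C.hS F C.hF hfn).2
  obtain ⟨ψ', hψ', hψ'x⟩ := F.inv_mem hφ
  have hψ'r : ψ'.range = Z := by
    ext y
    constructor
    · rintro ⟨⟨_, ⟨w, rfl⟩⟩, rfl⟩
      rw [hψ'x w]
      exact w.2
    · intro hy
      exact ⟨⟨φ ⟨y, hy⟩, ⟨_, rfl⟩⟩, hψ'x ⟨y, hy⟩⟩
  obtain ⟨ψ, hψ, hext⟩ := hrec.2 φ.range ψ' hψ' hψ'r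
  have hxr : x ∈ φ.range := ⟨⟨z, hzZ⟩, hx⟩
  have hMN : ∀ a ∈ P, a * x = x * a → a ∈ extender S φ.range ψ' := by
    intro a ha hax
    apply centralizerIn_le_extender S ψ'
    refine ⟨hPS ha, Subgroup.mem_centralizer_iff.2 ?_⟩
    rintro _ ⟨⟨w, hw⟩, rfl⟩
    obtain ⟨k, rfl⟩ := hgen w hw
    rw [hφpow k hw]
    have hc : Commute a x := hax
    exact (hc.pow_right k).eq.symm
  have hψx : ∀ hxN : x ∈ extender S φ.range ψ', ψ ⟨x, hxN⟩ = z := by
    intro hxN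
    rw [hext x hxr hxN]
    subst hx
    exact hψ'x ⟨z, hzZ⟩
  have hZN : ∀ w ∈ Z, w ∈ extender S φ.range ψ' := fun w hw =>
    hMN w (C.hZP hw) (C.hZcen w hw x hxS).symm
  have hinjψ := F.injective_of_mem hψ
  have hkey : ∀ w (hw : w ∈ Z), w ≠ 1 → ψ ⟨w, hZN w hw⟩ ∉ Z := by
    intro w hw hw1 hψw
    have hne1 : ψ ⟨w, hZN w hw⟩ ≠ 1 := by
      intro h
      have h0 : (⟨w, hZN w hw⟩ : ↥(extender S φ.range ψ')) = 1 := hinjψ (by rw [h, map_one])
      exact hw1 (congrArg Subtype.val h0)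
    obtain ⟨k, hk⟩ := Cfsg.Agent.Lib.Helper2.exists_pow_eq_of_card_prime Z C.hZcard hψw hne1 hzZ
    have hxN : x ∈ extender S φ.range ψ' := hMN x hxP rfl
    have h1 : ψ (⟨w, hZN w hw⟩ ^ k) = ψ ⟨x, hxN⟩ := by rw [map_pow, hk, hψx hxN]
    have h2 : w ^ k = x := congrArg Subtype.val (hinjψ h1)
    apply hxZ
    rw [← h2]
    exact Subgroup.pow_mem _ hw k
  have hψP : ∀ a (_ : a ∈ P) (haN : a ∈ extender S φ.range ψ'), ψ ⟨a, haN⟩ ∈ P :=
    fun a ha haN => stronglyClosed_hom_mem F C.hP hψ ⟨a, haN⟩ ha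
  refine ⟨z, x, hz1, hxP, ⟨hzZ, hx⟩, ?_, ?_⟩
  · intro a ha b hb hax hbx
    by_contra hab
    have haN := hMN a ha hax
    have hbN := hMN b hb hbx
    have hcZ : a * b * a⁻¹ * b⁻¹ ∈ Z := C.hcomm a ha b hb
    have hc1 : a * b * a⁻¹ * b⁻¹ ≠ 1 := fun h => hab (eq_of_comm_eq_one h)
    apply hkey _ hcZ hc1
    have h0 : (⟨a * b * a⁻¹ * b⁻¹, hZN _ hcZ⟩ : ↥(extender S φ.range ψ'))
        = ⟨a, haN⟩ * ⟨b, hbN⟩ * ⟨a, haN⟩⁻¹ * ⟨b, hbN⟩⁻¹ := rfl
    rw [h0, map_mul, map_mul, map_mul, map_inv, map_inv]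
    exact C.hcomm _ (hψP a ha haN) _ (hψP b hb hbN)
  · intro a ha hax
    by_contra hap
    have haN := hMN a ha hax
    have hcZ : a ^ p ∈ Z := C.hpow a ha
    apply hkey _ hcZ hap
    have h0 : (⟨a ^ p, hZN _ hcZ⟩ : ↥(extender S φ.range ψ')) = ⟨a, haN⟩ ^ p := rfl
    rw [h0, map_pow]
    exact C.hpow _ (hψP a ha haN)

theorem dat_of {p : ℕ} {F : FusionSystem S} {P Z : Subgroup Ω} (C : Ctx p S F P Z) {x t : Ω}
    (hx : x ∈ P) (ht : t ∈ P) (hxt : t * x ≠ x * t)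
    (hab : ∀ a ∈ P, ∀ b ∈ P, a * x = x * a → b * x = x * b → a * b = b * a)
    (hexp : ∀ a ∈ P, a * x = x * a → a ^ p = 1) :
    Dat p (⟨x, hx⟩ : ↥P) ⟨t, ht⟩ where
  hW := C.hW
  hcen := fun w hw g => Subtype.ext (C.hZcen _ (C.hWZ w hw) _ (C.hP.1 g.2))
  hpow := C.hpowW
  hxt := fun h => hxt (congrArg Subtype.val h)
  hab := fun a b ha hb =>
    Subtype.ext (hab a a.2 b b.2 (congrArg Subtype.val ha) (congrArg Subtype.val hb))
  hexp := fun a ha => Subtype.ext (hexp a a.2 (congrArg Subtype.val ha))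

theorem exists_noncomm {p : ℕ} [Fact p.Prime] {F : FusionSystem S} {P Z : Subgroup Ω}
    (C : Ctx p S F P Z) {x : Ω}
    (hab : ∀ a ∈ P, ∀ b ∈ P, a * x = x * a → b * x = x * b → a * b = b * a) :
    ∃ t ∈ P, t * x ≠ x * t := by
  by_contra hcon
  push_neg at hcon
  have hp : p.Prime := Fact.out
  have h1 : commutator ↥P = ⊥ := by
    rw [eq_bot_iff, commutator_def, Subgroup.commutator_le]
    intro a _ b _
    rw [Subgroup.mem_bot, commutatorElement_eq_one_iff_commute]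
    exact Subtype.ext (hab a a.2 b b.2 (hcon a a.2) (hcon b b.2))
  have h2 := C.hW
  rw [h1, Subgroup.card_bot] at h2
  exact hp.one_lt.ne h2

/-- The odd case with no element of order `p` outside `C_P(x)`: contradiction. -/
theorem odd_contra [Finite S] {p : ℕ} [Fact p.Prime] {F : FusionSystem S} {P Z : Subgroup Ω}
    (C : Ctx p S F P Z) (hp2 : p ≠ 2) {φ : Z →* Ω} (hφ : φ ∈ F.Hom Z) {z x : Ω} (hzZ : z ∈ Z)
    (hz1 : z ≠ 1) (hxP : x ∈ P) (hφz : φ ⟨z, hzZ⟩ = x)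
    (hab : ∀ a ∈ P, ∀ b ∈ P, a * x = x * a → b * x = x * b → a * b = b * a)
    (hexp : ∀ a ∈ P, a * x = x * a → a ^ p = 1)
    (hall : ∀ t ∈ P, t * x ≠ x * t → t ^ p ≠ 1)
    {t : Ω} (htP : t ∈ P) (htx : t * x ≠ x * t) : False := by
  have hp : p.Prime := Fact.out
  have hPS : P ≤ S := C.hP.1
  have htS : t ∈ S := hPS htP
  have hxS : x ∈ S := hPS hxP
  -- the subgroup `M = C_P(x)`
  let M : Subgroup Ω :=
    { carrier := {a | a ∈ P ∧ a * x = x * a}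
      mul_mem' := by
        rintro a b ⟨ha, hax⟩ ⟨hb, hbx⟩
        refine ⟨P.mul_mem ha hb, ?_⟩
        rw [mul_assoc, hbx, ← mul_assoc, hax, mul_assoc]
      one_mem' := ⟨P.one_mem, by rw [one_mul, mul_one]⟩
      inv_mem' := by
        rintro a ⟨ha, hax⟩
        refine ⟨P.inv_mem ha, ?_⟩
        calc a⁻¹ * x = a⁻¹ * (x * a) * a⁻¹ := by group
          _ = a⁻¹ * (a * x) * a⁻¹ := by rw [hax]
          _ = x * a⁻¹ := by group }
  have hMP : M ≤ P := fun a ha => ha.1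
  have hMS : M ≤ S := hMP.trans hPS
  haveI : Finite ↥M := Cfsg.Agent.Lib.Helper87.finite_of_le hMS
  have hMab : ∀ a ∈ M, ∀ b ∈ M, a * b = b * a := fun a ha b hb => hab a ha.1 b hb.1 ha.2 hb.2
  have hMexp : ∀ a ∈ M, a ^ p = 1 := fun a ha => hexp a ha.1 ha.2
  have hZM : Z ≤ M := fun w hw => ⟨C.hZP hw, (C.hZcen w hw x hxS).symm⟩
  have hxM : x ∈ M := ⟨hxP, rfl⟩
  have hzM : z ∈ M := hZM hzZ
  have hMsc : F.StronglyClosed M := by
    refine ⟨hMS, fun R hR θ hθ r => ?_⟩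
    have h1 : θ r ∈ P := C.hP.2 R (hR.trans hMP) θ hθ r
    refine ⟨h1, ?_⟩
    by_contra hc
    apply hall _ h1 hc
    rw [← map_pow]
    have h2 : r ^ p = 1 := Subtype.ext (hMexp r (hR r.2))
    rw [h2, map_one]
  have hMn : S ≤ Subgroup.normalizer (M : Set Ω) := stronglyClosed_le_normalizer F hMsc
  have htn : t ∈ Subgroup.normalizer (M : Set Ω) := hMn htS
  obtain ⟨α, hα, hαφ⟩ := exists_aut_extending_of_abelian F C.hF hMsc hMab hZM hφ
  have hαz : α ⟨z, hzM⟩ = ⟨x, hxM⟩ := by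
    apply Subtype.ext
    have h1 := hαφ ⟨z, hzZ⟩
    rw [hφz] at h1
    exact h1
  -- the transvection induced by `t`
  obtain ⟨u, hu_def⟩ : ∃ u : MulAut ↥M, u = conjAut M t htn := ⟨_, rfl⟩
  have huA : u ∈ F.autGroup M := by
    rw [hu_def]
    exact autInducedBy_le_autGroup F hMS (conjAut_mem_autInducedBy S M htS htn)
  have hu_apply : ∀ m : ↥M, ((u m : ↥M) : Ω) = t * m * t⁻¹ := by
    intro m
    rw [hu_def]
    rfl
  have hgen : ∀ w ∈ Z, ∃ k : ℕ, z ^ k = w := fun w hw =>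
    Cfsg.Agent.Lib.Helper2.exists_pow_eq_of_card_prime Z C.hZcard hzZ hz1 hw
  obtain ⟨zM, hzM_def⟩ : ∃ zM : ↥M, zM = ⟨z, hzM⟩ := ⟨_, rfl⟩
  obtain ⟨xM, hxM_def⟩ : ∃ xM : ↥M, xM = ⟨x, hxM⟩ := ⟨_, rfl⟩
  have hzMc : (zM : Ω) = z := by rw [hzM_def]
  have hxMc : (xM : Ω) = x := by rw [hxM_def]
  have hαz' : α zM = xM := by rw [hzM_def, hxM_def, hαz]
  have hcommM : ∀ a b : ↥M, a * b = b * a := fun a b => Subtype.ext (hMab a a.2 b b.2)
  have hzMp : zM ^ p = 1 := by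
    apply Subtype.ext
    rw [Subgroup.coe_pow, hzMc]
    exact hMexp z hzM
  have hu_form : ∀ r : ↥M, r⁻¹ * u r ∈ Subgroup.zpowers zM := by
    intro r
    have h1 : (r : Ω)⁻¹ * t * (r : Ω) * t⁻¹ ∈ Z := by
      have h := C.hcomm _ (P.inv_mem (hMP r.2)) t htP
      rwa [inv_inv] at h
    obtain ⟨k, hk⟩ := hgen _ h1
    refine Subgroup.mem_zpowers_iff.2 ⟨(k : ℤ), ?_⟩
    rw [zpow_natCast]
    apply Subtype.ext
    rw [Subgroup.coe_pow, hzMc, Subgroup.coe_mul, Subgroup.coe_inv, hu_apply, hk]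
    group
  have hu_z : u zM = zM := by
    apply Subtype.ext
    rw [hu_apply, hzMc, C.hZcen z hzZ t htS, mul_inv_cancel_right]
  have hu_x : u xM ≠ xM := by
    intro h
    have h1 : t * x * t⁻¹ = x := by
      have h0 := congrArg Subtype.val h
      rwa [hu_apply, hxMc] at h0
    apply htx
    calc t * x = (t * x * t⁻¹) * t := by group
      _ = x * t := by rw [h1]
  -- saturation facts for `M`
  have hMfn : F.IsFullyNormalized M := isFullyNormalized_of_normal F hMS hMn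
  obtain ⟨hfa, hrec⟩ := Cfsg.Agent.Lib.Helper86.fullyNormalized_imp C.hS F C.hF hMfn
  haveI : Finite ↥(F.autGroup M) := Cfsg.Agent.Lib.Helper84.finite_autGroup F hMS
  have hfixS : ∀ β : MulAut ↥M, β ∈ autInducedBy S M → β zM = zM := by
    intro β hβ
    obtain ⟨s, hs, hsβ⟩ := (mem_autInducedBy_iff S M β).1 hβ
    apply Subtype.ext
    rw [hsβ, hzMc, C.hZcen z hzZ s hs, mul_inv_cancel_right]
  -- Baer-Suzuki
  obtain ⟨g, hg⟩ : ∃ g : ↥(F.autGroup M), ¬ IsPGroup p (Subgroup.closure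
      ({(⟨u, huA⟩ : ↥(F.autGroup M)), g * ⟨u, huA⟩ * g⁻¹} : Set ↥(F.autGroup M))) := by
    by_contra hcon
    push_neg at hcon
    obtain ⟨N, hNn, hNp, huN⟩ :=
      Cfsg.Agent.Lib.Helper64.baerSuzuki_elt p (⟨u, huA⟩ : ↥(F.autGroup M)) hcon
    obtain ⟨R, hR⟩ := hfa.2
    haveI := hNn
    have hNR : N ≤ (R : Subgroup ↥(F.autGroup M)) := hNp.le_sylow_of_normal R
    have h1 : (⟨α, hα⟩ : ↥(F.autGroup M))⁻¹ * ⟨u, huA⟩ * (⟨α, hα⟩ : ↥(F.autGroup M)) ∈ N :=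
      hNn.conj_mem' _ huN _
    have h2 := hNR h1
    rw [hR, Subgroup.mem_subgroupOf] at h2
    have h3 := hfixS _ h2
    have h4 : α⁻¹ (u (α zM)) = zM := h3
    rw [hαz'] at h4
    have h5 := congrArg α h4
    rw [MulAut.apply_inv_self, hαz'] at h5
    exact hu_x h5
  obtain ⟨γ, hγ_def⟩ : ∃ γ : MulAut ↥M, γ = (g : MulAut ↥M) := ⟨_, rfl⟩
  have hγA : γ ∈ F.autGroup M := by
    rw [hγ_def]
    exact g.2
  obtain ⟨u', hu'_def⟩ : ∃ u' : MulAut ↥M, u' = γ * u * γ⁻¹ := ⟨_, rfl⟩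
  have hu'A : u' ∈ F.autGroup M := by
    rw [hu'_def]
    exact Subgroup.mul_mem _ (Subgroup.mul_mem _ hγA huA) (Subgroup.inv_mem _ hγA)
  have hu'_apply : ∀ r : ↥M, u' r = γ (u (γ⁻¹ r)) := by
    intro r
    rw [hu'_def]
    rfl
  obtain ⟨c', hc'_def⟩ : ∃ c' : ↥M, c' = γ zM := ⟨_, rfl⟩
  have hc'p : c' ^ p = 1 := by
    rw [hc'_def, ← map_pow, hzMp, map_one]
  have hu'_form : ∀ r : ↥M, r⁻¹ * u' r ∈ Subgroup.zpowers c' := by
    intro r
    obtain ⟨k, hk⟩ := Subgroup.mem_zpowers_iff.1 (hu_form (γ⁻¹ r))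
    refine Subgroup.mem_zpowers_iff.2 ⟨k, ?_⟩
    rw [hc'_def, hu'_apply, ← map_zpow, hk, map_mul, map_inv, MulAut.apply_inv_self]
  have hu'_c' : u' c' = c' := by
    rw [hc'_def, hu'_apply, MulAut.inv_apply_self, hu_z]
  have hnotp : ¬ ∀ δ ∈ Subgroup.closure ({u, u'} : Set (MulAut ↥M)), δ ^ (p * p) = 1 := by
    intro hall'
    apply hg
    intro e
    refine ⟨2, ?_⟩
    have hle : Subgroup.closure ({(⟨u, huA⟩ : ↥(F.autGroup M)), g * ⟨u, huA⟩ * g⁻¹} :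
        Set ↥(F.autGroup M))
        ≤ (Subgroup.closure ({u, u'} : Set (MulAut ↥M))).comap (F.autGroup M).subtype := by
      rw [Subgroup.closure_le]
      rintro y (rfl | hy)
      · exact Subgroup.subset_closure (Set.mem_insert _ _)
      · rw [Set.mem_singleton_iff] at hy
        rw [hy]
        have h0 : (F.autGroup M).subtype (g * ⟨u, huA⟩ * g⁻¹) = u' := by
          rw [hu'_def, hγ_def]
          rfl
        show (F.autGroup M).subtype (g * ⟨u, huA⟩ * g⁻¹)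
          ∈ Subgroup.closure ({u, u'} : Set (MulAut ↥M))
        rw [h0]
        exact Subgroup.subset_closure (Set.mem_insert_of_mem _ (Set.mem_singleton _))
    have h1 := hall' _ (hle e.2)
    apply Subtype.ext
    apply Subtype.ext
    rw [pow_two]
    exact h1
  have hnf1 : u' zM ≠ zM := by
    intro h
    exact hnotp (closure_pair_pow_eq_one hcommM hzMp hc'p hu_form hu'_form hu_z hu'_c' h)
  have hnf2 : u c' ≠ c' := by
    intro h
    apply hnotp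
    intro δ hδ
    have hδ' : δ ∈ Subgroup.closure ({u', u} : Set (MulAut ↥M)) := by
      rwa [Set.pair_comm] at hδ
    exact closure_pair_pow_eq_one hcommM hc'p hzMp hu'_form hu_form hu'_c' hu_z h δ hδ'
  have hd1 : c'⁻¹ * u c' ≠ 1 := by
    intro h
    apply hnf2
    calc u c' = c' * (c'⁻¹ * u c') := by group
      _ = c' := by rw [h, mul_one]
  have hd'1 : zM⁻¹ * u' zM ≠ 1 := by
    intro h
    apply hnf1
    calc u' zM = zM * (zM⁻¹ * u' zM) := by group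
      _ = zM := by rw [h, mul_one]
  have htc' : u c' = c' * (c'⁻¹ * u c') := by group
  have ht'c : u' zM = zM * (zM⁻¹ * u' zM) := by group
  obtain ⟨τ, hτcl, hτz, hτc'⟩ := exists_inversion_pair hp hcommM hzMp hc'p hu_z hu'_c'
    (hu_form c') hd1 htc' (hu'_form zM) hd'1 ht'c
  obtain ⟨-, -, hτu, -⟩ := inversion_pair_props hp hcommM hzMp hc'p hu_form hu'_form hu_z hu'_c'
    (hu_form c') hd1 htc' (hu'_form zM) hd'1 ht'c hτcl hτz hτc'
  have hτA : τ ∈ F.autGroup M := by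
    have hle : Subgroup.closure ({u, u'} : Set (MulAut ↥M)) ≤ F.autGroup M := by
      rw [Subgroup.closure_le]
      rintro y (rfl | hy)
      · exact huA
      · rw [Set.mem_singleton_iff] at hy
        rw [hy]
        exact hu'A
    exact hle hτcl
  -- extend `τ` to `t`
  have hφτ : M.subtype.comp τ.toMonoidHom ∈ F.Hom M := (mem_autGroup_iff F hMS τ).1 hτA
  obtain ⟨ψ, hψ, hext⟩ := hrec.2 M _ hφτ (range_subtype_comp_aut τ)
  have htN : t ∈ extender S M (M.subtype.comp τ.toMonoidHom) := by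
    refine mem_extender htS htn ⟨t, htS, fun m hm => ?_⟩
    show ((τ ⟨t * m * t⁻¹, hm⟩ : ↥M) : Ω) = t * ((τ m : ↥M) : Ω) * t⁻¹
    have h1 := congrArg Subtype.val (hτu m)
    rw [hu_apply] at h1
    have h2 : (⟨t * m * t⁻¹, hm⟩ : ↥M) = u m := Subtype.ext (hu_apply m).symm
    rw [h2]
    exact h1
  have hMN : M ≤ extender S M (M.subtype.comp τ.toMonoidHom) :=
    Cfsg.Agent.Lib.Helper87.le_extender F hφτ
  have hψM : ∀ (m : Ω) (hm : m ∈ M), ψ ⟨m, hMN hm⟩ = ((τ ⟨m, hm⟩ : ↥M) : Ω) :=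
    fun m hm => hext m hm (hMN hm)
  obtain ⟨t', ht'def⟩ : ∃ t', ψ ⟨t, htN⟩ = t' := ⟨_, rfl⟩
  have ht'P : t' ∈ P := by
    rw [← ht'def]
    exact stronglyClosed_hom_mem F C.hP hψ ⟨t, htN⟩ htP
  obtain ⟨m₀, hm₀⟩ : ∃ m₀ : ↥M, τ m₀ = xM := ⟨τ⁻¹ xM, by rw [MulAut.apply_inv_self]⟩
  have hkey : t * x * t⁻¹ = t' * x * t'⁻¹ := by
    have e1 : ψ (⟨t, htN⟩ * ⟨(m₀ : Ω), hMN m₀.2⟩ * ⟨t, htN⟩⁻¹) = t' * x * t'⁻¹ := by
      rw [map_mul, map_mul, map_inv, ht'def, hψM _ m₀.2]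
      have h0 : ((τ ⟨(m₀ : Ω), m₀.2⟩ : ↥M) : Ω) = x := by
        have h00 := congrArg Subtype.val hm₀
        rw [hxMc] at h00
        exact h00
      rw [h0]
    have e2 : (⟨t, htN⟩ * ⟨(m₀ : Ω), hMN m₀.2⟩ * ⟨t, htN⟩⁻¹ :
        ↥(extender S M (M.subtype.comp τ.toMonoidHom)))
        = ⟨((u m₀ : ↥M) : Ω), hMN (u m₀).2⟩ := Subtype.ext (hu_apply m₀).symm
    rw [e2, hψM _ (u m₀).2] at e1
    have e3 : ((τ ⟨((u m₀ : ↥M) : Ω), (u m₀).2⟩ : ↥M) : Ω) = t * x * t⁻¹ := by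
      have h0 := congrArg Subtype.val (hτu m₀)
      rw [hm₀, hu_apply, hxMc] at h0
      exact h0
    rw [e3] at e1
    exact e1
  have hm₁P : t⁻¹ * t' ∈ P := P.mul_mem (P.inv_mem htP) ht'P
  have hm₁x : (t⁻¹ * t') * x = x * (t⁻¹ * t') := by
    calc (t⁻¹ * t') * x = t⁻¹ * (t' * x * t'⁻¹) * t' := by group
      _ = t⁻¹ * (t * x * t⁻¹) * t' := by rw [hkey]
      _ = x * (t⁻¹ * t') := by group
  have hm₁p : (t⁻¹ * t') ^ p = 1 := hexp _ hm₁P hm₁x
  have hcZ : (t⁻¹ * t')⁻¹ * t⁻¹ * (t⁻¹ * t') * t ∈ Z := by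
    have h := C.hcomm _ (P.inv_mem hm₁P) _ (P.inv_mem htP)
    rwa [inv_inv, inv_inv] at h
  have ht'p : t' ^ p = t ^ p := by
    have h1 : t' = t * (t⁻¹ * t') := by group
    rw [h1, mul_pow_prime_class_two hp hp2 t (t⁻¹ * t') _
      (by group : (t⁻¹ * t') * t = t * (t⁻¹ * t') * ((t⁻¹ * t')⁻¹ * t⁻¹ * (t⁻¹ * t') * t))
      (C.hZcen _ hcZ t htS).symm (C.hZcen _ hcZ _ (hPS hm₁P)).symm
      (hexp _ (C.hZP hcZ) (C.hZcen _ hcZ x hxS).symm), hm₁p, mul_one]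
  have htpZ : t ^ p ∈ Z := C.hpow t htP
  have h2 : t' ^ p = (t ^ p)⁻¹ := by
    have e1 : ψ (⟨t, htN⟩ ^ p) = t' ^ p := by rw [map_pow, ht'def]
    have e2 : (⟨t, htN⟩ ^ p : ↥(extender S M (M.subtype.comp τ.toMonoidHom)))
        = ⟨t ^ p, hMN (hZM htpZ)⟩ := rfl
    rw [e2, hψM _ (hZM htpZ)] at e1
    rw [← e1]
    obtain ⟨k, hk⟩ := hgen _ htpZ
    have e3 : (⟨t ^ p, hZM htpZ⟩ : ↥M) = zM ^ k := by
      apply Subtype.ext
      rw [Subgroup.coe_pow, hzMc, hk]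
    rw [e3, map_pow, hτz, Subgroup.coe_pow, Subgroup.coe_inv, hzMc, inv_pow, hk]
  have h3 : t ^ p = (t ^ p)⁻¹ := ht'p.symm.trans h2
  have h4 : (t ^ p) ^ 2 = 1 := by
    rw [pow_two]
    nth_rewrite 2 [h3]
    exact mul_inv_cancel _
  have h5 : (t ^ p) ^ p = 1 := hexp _ (C.hZP htpZ) (C.hZcen _ htpZ x hxS).symm
  exact hall t htP htx (eq_one_of_pow_coprime h5 h4 ((Nat.coprime_primes hp Nat.prime_two).2 hp2))

/-- **Main step**: the derived subgroup `Z` of a strongly closed generalized extraspecial subgroup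
`P` is weakly closed, unless `P ≅ E × A` as in the exceptions. -/
theorem weaklyClosed_Z [Finite S] {p : ℕ} [Fact p.Prime] {F : FusionSystem S} {P Z : Subgroup Ω}
    (C : Ctx p S F P Z)
    (h2 : p = 2 → ¬ ∃ (A : Type) (_ : CommGroup A), (∀ a : A, a ^ 2 = 1) ∧
      Nonempty (↥P ≃* DihedralGroup 4 × A))
    (hodd : p ≠ 2 → ¬ ∃ (E : Type) (_ : Group E) (A : Type) (_ : CommGroup A),
      Cfsg.IsExtraspecial p E ∧ Nat.card E = p ^ 3 ∧ Monoid.exponent E = p ∧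
      (∀ a : A, a ^ p = 1) ∧ Nonempty (↥P ≃* E × A)) :
    F.WeaklyClosed Z := by
  refine ⟨C.hZP.trans C.hP.1, fun φ hφ => ?_⟩
  by_contra hne
  haveI : Finite ↥P := Cfsg.Agent.Lib.Helper87.finite_of_le C.hP.1
  obtain ⟨z, x, hz1, hxP, ⟨hzZ, hφz⟩, hab, hexp⟩ := exists_bad_elt C hφ hne
  obtain ⟨t, htP, htx⟩ := exists_noncomm C hab
  have D := dat_of C hxP htP htx hab hexp
  by_cases hp2 : p = 2
  · subst hp2
    exact h2 rfl (two_case D)
  · by_cases hex : ∃ t' ∈ P, t' * x ≠ x * t' ∧ t' ^ p = 1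
    · obtain ⟨t', ht'P, ht'x, ht'p⟩ := hex
      have D' := dat_of C hxP ht'P ht'x hab hexp
      exact hodd hp2 (odd_case D' hp2 (Subtype.ext ht'p))
    · push_neg at hex
      exact odd_contra C hp2 hφ hzZ hz1 hxP hφz hab hexp (fun t ht htx => hex t ht htx) htP htx

end Cfsg.Agent.Lib.Helper85GE
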